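import Mathlib
import Cfsg.Agent.Lib.LocalStruct.ThompsonIdx
import Cfsg.Agent.Lib.Transfer.Focal
import Cfsg.Agent.Lib.Involutions2.KleinSylow

/-!
# Transfer tools for the Sylow 2-subgroup of `S1906`

`G` has no homomorphism onto a group of order two, `X` a Sylow 2-subgroup.

* `hom_trivial_of_stable`: a `G`-stable sign character of `X` is trivial.
* `false_of_central`: if `N_G(X)` centralizes `Z(X)` there is no sign character `ϕ` and `z ∈ Z(X)` with `ϕ z = -1`,
  such that `z` has minimal order among the elements with `ϕ = -1`.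
* `false_of_sq`: if squares of `G`-conjugate elements of `X` agree modulo `X'` (and `X` has a central involution `δ` with
  `χ δ ≠ 1`, `χ` a homomorphism to a group where `χ x ^ 2 = 1 → χ x ∈ {1, χ δ}`), contradiction.
-/

set_option autoImplicit false
set_option linter.style.haveILetI false
set_option linter.unusedSectionVars false
set_option linter.unusedVariables false
set_option linter.style.longLine false
set_option linter.style.multiGoal false

namespace Cfsg.Agent.Lib.GL3Syl.Basic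

open Cfsg.Agent.Lib.LocalStruct.ThompsonIdx

variable {G : Type*} [Group G] [Finite G]

lemma orderOf_conj_inv (g a : G) : orderOf (g⁻¹ * a * g) = orderOf a := by
  have : g⁻¹ * a * g = MulAut.conj g⁻¹ a := by simp
  rw [this]
  exact orderOf_injective (MulAut.conj g⁻¹).toMonoidHom (MulAut.conj g⁻¹).injective a

lemma units_int_cases (u : ℤˣ) : u = 1 ∨ u = -1 := Int.units_eq_one_or u

lemma card_units_int : Nat.card ℤˣ = 2 := by
  rw [Nat.card_eq_fintype_card]; rfl

lemma range_eq_top_of_neg {T : Type*} [Group T] (f : T →* ℤˣ) {t : T} (ht : f t = -1) : f.range = ⊤ := by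
  rw [eq_top_iff]
  intro u _
  rcases units_int_cases u with rfl | rfl
  · exact one_mem _
  · exact ⟨t, ht⟩

/-- No subgroup of index two means no sign character. -/
theorem hom_trivial_of_index (hG : ∀ H : Subgroup G, H.index ≠ 2) (f : G →* ℤˣ) (g : G) : f g = 1 := by
  by_contra h
  have h1 : f g = -1 := (units_int_cases _).resolve_left h
  apply hG f.ker
  rw [Subgroup.index_ker, range_eq_top_of_neg f h1, Nat.card_congr Subgroup.topEquiv.toEquiv, card_units_int]

/-- Burnside: central elements of a Sylow subgroup conjugate in `G` are conjugate in the normalizer. -/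
theorem exists_normalizer_of_central {p : ℕ} [hpf : Fact p.Prime] (P : Sylow p G) {y y' : G}
    (hy : ∀ a ∈ (P : Subgroup G), a * y = y * a) (hy' : ∀ a ∈ (P : Subgroup G), a * y' = y' * a)
    (hc : IsConj y y') : ∃ n ∈ Subgroup.normalizer ((P : Subgroup G) : Set G), n * y * n⁻¹ = y' := by
  classical
  obtain ⟨g, hg⟩ := isConj_iff.mp hc
  set H := Subgroup.centralizer ({y'} : Set G) with hH
  have hle : (P : Subgroup G) ≤ H := by
    intro x hx
    rw [hH, Subgroup.mem_centralizer_singleton_iff]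
    exact hy' x hx
  let Q : Sylow p G := g • P
  have hQ : (Q : Subgroup G) = (P : Subgroup G).map (MulAut.conj g).toMonoidHom := rfl
  have hQle : (Q : Subgroup G) ≤ H := by
    rw [hQ]
    rintro _ ⟨a, ha, rfl⟩
    rw [hH, Subgroup.mem_centralizer_singleton_iff, ← hg]
    simp only [MulEquiv.coe_toMonoidHom, MulAut.conj_apply]
    have := hy a ha
    calc g * a * g⁻¹ * (g * y * g⁻¹) = g * (a * y) * g⁻¹ := by group
      _ = g * (y * a) * g⁻¹ := by rw [this]
      _ = _ := by group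
  let S₁ : Sylow p H := P.subtype hle
  let S₂ : Sylow p H := Q.subtype hQle
  obtain ⟨c, hcS⟩ := MulAction.exists_smul_eq H S₂ S₁
  have hS₁ : (S₁ : Subgroup H) = (P : Subgroup G).subgroupOf H := rfl
  have hS₂ : (S₂ : Subgroup H) = (Q : Subgroup G).subgroupOf H := rfl
  have hcS' : ∀ x ∈ (P : Subgroup G), (c : G) * (g * x * g⁻¹) * (c : G)⁻¹ ∈ (P : Subgroup G) := by
    intro x hx
    have h1 : g * x * g⁻¹ ∈ (Q : Subgroup G) := by
      rw [hQ]
      exact ⟨x, hx, rfl⟩
    have h2 : (⟨g * x * g⁻¹, hQle h1⟩ : H) ∈ (S₂ : Subgroup H) := by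
      rw [hS₂]
      exact h1
    have h3 : c * (⟨g * x * g⁻¹, hQle h1⟩ : H) * c⁻¹ ∈ ((c • S₂ : Sylow p H) : Subgroup H) := by
      rw [Sylow.coe_subgroup_smul]
      exact ⟨_, h2, rfl⟩
    rw [hcS, hS₁] at h3
    exact h3
  refine ⟨(c : G) * g, ?_, ?_⟩
  · rw [Subgroup.mem_normalizer_iff_map_conj_eq]
    apply Subgroup.eq_of_le_of_card_ge
    · rintro _ ⟨a, ha, rfl⟩
      have := hcS' a ha
      simpa [mul_assoc] using this
    · exact (Nat.card_congr (Subgroup.equivMapOfInjective (P : Subgroup G) _ (MulAut.conj ((c : G) * g)).injective).toEquiv).le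
  · rw [mul_inv_rev]
    calc (c : G) * g * y * (g⁻¹ * (c : G)⁻¹) = (c : G) * (g * y * g⁻¹) * (c : G)⁻¹ := by group
      _ = (c : G) * y' * (c : G)⁻¹ := by rw [hg]
      _ = y' := by
        have h1 := (Subgroup.mem_centralizer_singleton_iff.mp c.2)
        rw [h1]
        group

/-- If the normalizer of `X` centralizes `Z(X)` then central elements of `X` conjugate in `G` coincide. -/
theorem central_conj_eq (X : Sylow 2 G)
    (hN : ∀ n ∈ Subgroup.normalizer ((X : Subgroup G) : Set G), ∀ z ∈ (X : Subgroup G),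
      (∀ y ∈ (X : Subgroup G), y * z = z * y) → n * z * n⁻¹ = z)
    {z z' : G} (hz : z ∈ (X : Subgroup G)) (hzc : ∀ y ∈ (X : Subgroup G), y * z = z * y)
    (hzc' : ∀ y ∈ (X : Subgroup G), y * z' = z' * y) (hc : IsConj z z') : z' = z := by
  haveI : Fact (Nat.Prime 2) := ⟨Nat.prime_two⟩
  obtain ⟨n, hn, h⟩ := exists_normalizer_of_central X hzc hzc' hc
  rw [← h]
  exact hN n hn z hz hzc

/-- **Thompson transfer for central elements.** -/
theorem false_of_central (hG : ∀ (f : G →* ℤˣ) (g : G), f g = 1) (X : Sylow 2 G)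
    (hN : ∀ n ∈ Subgroup.normalizer ((X : Subgroup G) : Set G), ∀ z ∈ (X : Subgroup G),
      (∀ y ∈ (X : Subgroup G), y * z = z * y) → n * z * n⁻¹ = z)
    (ϕ : ↥(X : Subgroup G) →* ℤˣ) (z : ↥(X : Subgroup G)) (hz : ∀ y : ↥(X : Subgroup G), y * z = z * y)
    (hϕz : ϕ z = -1) (hmin : ∀ x, ϕ x = -1 → orderOf z ≤ orderOf x) : False := by
  classical
  haveI : Fact (Nat.Prime 2) := ⟨Nat.prime_two⟩
  set K : Subgroup G := ϕ.ker.map (X : Subgroup G).subtype with hK
  have hKX : K ≤ (X : Subgroup G) := Subgroup.map_subtype_le _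
  have hsub : K.subgroupOf (X : Subgroup G) = ϕ.ker := by
    rw [hK]
    exact Subgroup.comap_map_eq_self_of_injective Subtype.val_injective _
  have hKidx : K.relIndex (X : Subgroup G) = 2 := by
    rw [Subgroup.relIndex, hsub, Subgroup.index_ker, range_eq_top_of_neg ϕ hϕz,
      Nat.card_congr Subgroup.topEquiv.toEquiv, card_units_int]
  have hmemK : ∀ x : ↥(X : Subgroup G), (x : G) ∈ K ↔ ϕ x = 1 := by
    intro x
    constructor
    · rintro ⟨y, hy, hxy⟩
      have : y = x := Subtype.ext hxy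
      rw [← this]
      exact hy
    · intro h
      exact ⟨x, h, rfl⟩
  obtain ⟨n, hn⟩ : ∃ n, orderOf z = 2 ^ n := IsPGroup.iff_orderOf.mp X.isPGroup' z
  have hordG : orderOf (z : G) = 2 ^ n := by rw [Subgroup.orderOf_coe, hn]
  have hxn : (z : G) ^ (2 ^ n) = 1 := by rw [← hordG]; exact pow_orderOf_eq_one _
  have hz1 : z ≠ 1 := by
    rintro rfl
    rw [map_one] at hϕz
    exact absurd hϕz (by decide)
  have hn0 : n ≠ 0 := by
    rintro rfl
    exact hz1 (orderOf_eq_one_iff.mp (by simpa using hn))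
  have hmin' : ∀ k : ℕ, k ≠ 1 → k ∣ 2 ^ n → ∀ g : G, g⁻¹ * (z : G) ^ k * g ∈ (X : Subgroup G) →
      g⁻¹ * (z : G) ^ k * g ∈ K := by
    intro k hk1 hkd g hg
    by_contra hnot
    have h1 : ϕ ⟨_, hg⟩ = -1 :=
      (units_int_cases _).resolve_left (fun h => hnot ((hmemK ⟨_, hg⟩).mpr h))
    have h2 := hmin _ h1
    have e1 : orderOf (⟨_, hg⟩ : ↥(X : Subgroup G)) = orderOf (g⁻¹ * (z : G) ^ k * g) := Subgroup.orderOf_mk _ _
    rw [e1, hn, orderOf_conj_inv] at h2
    obtain ⟨j, -, rfl⟩ := (Nat.dvd_prime_pow Nat.prime_two).mp hkd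
    have hj : j ≠ 0 := by
      rintro rfl
      exact hk1 (by simp)
    have h4 : orderOf ((z : G) ^ (2 ^ j)) ∣ 2 ^ (n - 1) := by
      apply orderOf_dvd_of_pow_eq_one
      rw [← pow_mul]
      apply orderOf_dvd_iff_pow_eq_one.mp
      rw [hordG]
      obtain ⟨j', rfl⟩ := Nat.exists_eq_succ_of_ne_zero hj
      obtain ⟨n', rfl⟩ := Nat.exists_eq_succ_of_ne_zero hn0
      refine ⟨2 ^ j', ?_⟩
      simp only [Nat.succ_eq_add_one, Nat.add_sub_cancel]
      ring
    have h5 := Nat.le_of_dvd (by positivity) h4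
    have h6 : 2 ^ n ≤ 2 ^ (n - 1) := h2.trans h5
    have h7 := Nat.pow_le_pow_iff_right (a := 2) (by norm_num) |>.mp h6
    omega
  obtain ⟨g, hgK, hgP⟩ := exists_conj_mem hG (H := (X : Subgroup G)) (K := K) X.not_dvd_index hKX hKidx
    (x := (z : G)) n hxn hmin' (X : Subgroup G) X.isPGroup' (fun p hp => by
      have := hz ⟨p, hp⟩
      simpa using congrArg Subtype.val this)
  have hnorm : g⁻¹ ∈ Subgroup.normalizer ((X : Subgroup G) : Set G) := by
    rw [Subgroup.mem_normalizer_iff_map_conj_eq]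
    apply Subgroup.eq_of_le_of_card_ge
    · rintro _ ⟨a, ha, rfl⟩
      simpa using hgP a ha
    · exact (Nat.card_congr (Subgroup.equivMapOfInjective (X : Subgroup G) _ (MulAut.conj g⁻¹).injective).toEquiv).le
  have h8 := hN _ hnorm (z : G) z.2 (fun y hy => by
    have := hz ⟨y, hy⟩
    simpa using congrArg Subtype.val this)
  have h9 : g⁻¹ * (z : G) * g = z := by
    simpa using h8
  rw [h9] at hgK
  have := (hmemK z).mp hgK
  rw [hϕz] at this
  exact absurd this (by decide)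

/-- A `G`-stable sign character is trivial. -/
theorem hom_trivial_of_stable (hG : ∀ (f : G →* ℤˣ) (g : G), f g = 1) (X : Sylow 2 G)
    (ϕ : ↥(X : Subgroup G) →* ℤˣ) (hϕ : ∀ (x y : ↥(X : Subgroup G)) (g : G), (y : G) = g * x * g⁻¹ → ϕ y = ϕ x)
    (x : ↥(X : Subgroup G)) : ϕ x = 1 := by
  haveI : Fact (Nat.Prime 2) := ⟨Nat.prime_two⟩
  have hcop : Nat.Coprime (Nat.card ℤˣ) (X : Subgroup G).index := by
    rw [card_units_int]
    exact (Nat.prime_two.coprime_iff_not_dvd).mpr X.not_dvd_index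
  obtain ⟨f, hf⟩ := Cfsg.Agent.Lib.Transfer.Focal.exists_extension hcop ϕ hϕ
  rw [← hf, hG]

/-- A nontrivial finite `2`-group has a nontrivial sign character. -/
theorem exists_sign {T : Type*} [Group T] [Finite T] (hT : IsPGroup 2 T) {t₀ : T} (ht₀ : t₀ ≠ 1) :
    ∃ f : T →* ℤˣ, ∃ t, f t = -1 := by
  classical
  haveI : Fact (Nat.Prime 2) := ⟨Nat.prime_two⟩
  obtain ⟨m, hm⟩ := IsPGroup.iff_card.mp hT
  have hm0 : m ≠ 0 := by
    rintro rfl
    have : Nat.card T = 1 := by simpa using hm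
    have hsub := (Nat.card_eq_one_iff_unique.mp this).1
    exact ht₀ (hsub.elim _ _)
  obtain ⟨m', rfl⟩ := Nat.exists_eq_succ_of_ne_zero hm0
  obtain ⟨K, hK⟩ := Sylow.exists_subgroup_card_pow_prime (G := T) (p := 2) (n := m') (by rw [hm]; exact pow_dvd_pow _ (Nat.le_succ _))
  have hidx : K.index = 2 := by
    have := K.index_mul_card
    rw [hK, hm, Nat.succ_eq_add_one, pow_succ, mul_comm] at this
    exact Nat.eq_of_mul_eq_mul_left (by positivity) this
  haveI := Subgroup.normal_of_index_eq_two hidx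
  have hne : ∃ t, t ∉ K := by
    by_contra h
    push_neg at h
    have : K = ⊤ := by
      rw [eq_top_iff]; intro x _; exact h x
    rw [this, Subgroup.index_top] at hidx
    exact absurd hidx (by norm_num)
  obtain ⟨t, ht⟩ := hne
  have hrel : K.relIndex (⊤ : Subgroup T) = 2 := by
    rw [Subgroup.relIndex_top_right, hidx]
  refine ⟨(sgn (⊤ : Subgroup T) K hrel).comp Subgroup.topEquiv.symm.toMonoidHom, t, ?_⟩
  change sgn (⊤ : Subgroup T) K hrel ⟨t, trivial⟩ = -1
  exact sgn_apply' hrel _ ht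

/-- Extension of a character from a subgroup of index two complemented by an involution. -/
theorem ext_hom {X L : Subgroup G} (hL : L.relIndex X = 2) {σ : G} (hσ : σ ∈ X) (hσL : σ ∉ L) (hLX : L ≤ X)
    (hσ2 : σ * σ = 1) {C : Type*} [Group C] (φ : ↥L →* C)
    (hφ : ∀ (y : G) (hy : y ∈ L) (hy' : σ * y * σ ∈ L), φ ⟨_, hy'⟩ = φ ⟨y, hy⟩) :
    ∃ Φ : ↥X →* C, (∀ (x : G) (hx : x ∈ X) (hxL : x ∈ L), Φ ⟨x, hx⟩ = φ ⟨x, hxL⟩) ∧
      (∀ (x : G) (hx : x ∈ X) (hxL : x ∉ L), ∃ h : x * σ ∈ L, Φ ⟨x, hx⟩ = φ ⟨_, h⟩) := by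
  classical
  have hmm := fun {a b : G} (ha : a ∈ X) (hb : b ∈ X) => mul_mem_iff hL ha hb
  have hσi : σ⁻¹ = σ := inv_eq_of_mul_eq_one_left hσ2
  have hmemσ : ∀ x ∈ X, x ∉ L → x * σ ∈ L := by
    intro x hx hxL
    rw [hmm hx hσ]
    exact ⟨fun h => absurd h hxL, fun h => absurd h hσL⟩
  have hmemσ' : ∀ x ∈ X, x ∉ L → σ * x ∈ L := by
    intro x hx hxL
    rw [hmm hσ hx]
    exact ⟨fun h => absurd h hσL, fun h => absurd h hxL⟩
  let Φf : ↥X → C := fun x => if h : (x : G) ∈ L then φ ⟨x, h⟩ else φ ⟨(x : G) * σ, hmemσ x x.2 h⟩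
  have hconj : ∀ (y : G) (hy : y ∈ L), σ * y * σ ∈ L := by
    intro y hy
    have h1 : σ * y * σ⁻¹ ∈ L := by
      have h2 := (conj_mem_iff hL (h := σ⁻¹) (hLX hy) (X.inv_mem hσ)).mpr hy
      simpa using h2
    rwa [hσi] at h1
  have hΦpos : ∀ (x : ↥X) (h : (x : G) ∈ L), Φf x = φ ⟨x, h⟩ := fun x h => dif_pos h
  have hΦneg : ∀ (x : ↥X) (h : (x : G) ∉ L), Φf x = φ ⟨(x : G) * σ, hmemσ x x.2 h⟩ := fun x h => dif_neg h
  refine ⟨MonoidHom.mk' Φf ?_, ?_, ?_⟩
  · rintro ⟨a, ha⟩ ⟨b, hb⟩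
    by_cases haL : a ∈ L <;> by_cases hbL : b ∈ L
    · have hab : (((⟨a, ha⟩ : ↥X) * ⟨b, hb⟩ : ↥X) : G) ∈ L := L.mul_mem haL hbL
      rw [hΦpos _ hab, hΦpos ⟨a, ha⟩ haL, hΦpos ⟨b, hb⟩ hbL, ← map_mul]
      rfl
    · have hab : (((⟨a, ha⟩ : ↥X) * ⟨b, hb⟩ : ↥X) : G) ∉ L := by
        change a * b ∉ L
        rw [hmm ha hb]
        exact fun h => hbL (h.mp haL)
      rw [hΦneg _ hab, hΦpos ⟨a, ha⟩ haL, hΦneg ⟨b, hb⟩ hbL, ← map_mul]
      congr 1
      exact Subtype.ext (by simp [mul_assoc])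
    · have hab : (((⟨a, ha⟩ : ↥X) * ⟨b, hb⟩ : ↥X) : G) ∉ L := by
        change a * b ∉ L
        rw [hmm ha hb]
        exact fun h => haL (h.mpr hbL)
      rw [hΦneg _ hab, hΦneg ⟨a, ha⟩ haL, hΦpos ⟨b, hb⟩ hbL]
      have h1 := hφ b hbL (hconj b hbL)
      rw [← h1, ← map_mul]
      congr 1
      apply Subtype.ext
      simp only [Subgroup.coe_mul]
      calc a * b * σ = a * (σ * σ) * b * σ := by rw [hσ2]; group
        _ = a * σ * (σ * b * σ) := by group
    · have hab : (((⟨a, ha⟩ : ↥X) * ⟨b, hb⟩ : ↥X) : G) ∈ L := by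
        change a * b ∈ L
        rw [hmm ha hb]
        exact ⟨fun h => absurd h haL, fun h => absurd h hbL⟩
      rw [hΦpos _ hab, hΦneg ⟨a, ha⟩ haL, hΦneg ⟨b, hb⟩ hbL]
      have h1 := hφ (b * σ) (hmemσ b hb hbL) (hconj _ (hmemσ b hb hbL))
      rw [← h1, ← map_mul]
      congr 1
      apply Subtype.ext
      simp only [Subgroup.coe_mul]
      calc a * b = a * (σ * σ) * b * (σ * σ) := by rw [hσ2]; group
        _ = a * σ * (σ * (b * σ) * σ) := by group
  · intro x hx hxL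
    exact hΦpos ⟨x, hx⟩ hxL
  · intro x hx hxL
    exact ⟨hmemσ x hx hxL, hΦneg ⟨x, hx⟩ hxL⟩

/-- **Squares control.** -/
theorem false_of_sq (hG : ∀ (f : G →* ℤˣ) (g : G), f g = 1) (X : Sylow 2 G)
    (hN : ∀ n ∈ Subgroup.normalizer ((X : Subgroup G) : Set G), ∀ z ∈ (X : Subgroup G),
      (∀ y ∈ (X : Subgroup G), y * z = z * y) → n * z * n⁻¹ = z)
    {A : Type*} [CommGroup A] (χ : ↥(X : Subgroup G) →* A) (δ : ↥(X : Subgroup G))
    (hδc : ∀ y : ↥(X : Subgroup G), y * δ = δ * y) (hδ2 : δ * δ = 1) (hχδ : χ δ ≠ 1)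
    (hχ : ∀ x, χ x * χ x = 1 → χ x = 1 ∨ χ x = χ δ)
    (hSq : ∀ (x y : ↥(X : Subgroup G)) (g : G), (y : G) = g * x * g⁻¹ →
      (Abelianization.of y) ^ 2 = (Abelianization.of x) ^ 2) : False := by
  classical
  haveI : Fact (Nat.Prime 2) := ⟨Nat.prime_two⟩
  by_cases h : ∃ x₀ : ↥(X : Subgroup G), (Abelianization.of x₀) ^ 2 ≠ 1
  · obtain ⟨x₀, hx₀⟩ := h
    set B := Abelianization ↥(X : Subgroup G)
    have hB : IsPGroup 2 B := X.isPGroup'.of_surjective (Abelianization.of) (fun b => by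
      obtain ⟨x, rfl⟩ := QuotientGroup.mk'_surjective _ b
      exact ⟨x, rfl⟩)
    let sq : B →* B := powMonoidHom 2
    have hT : IsPGroup 2 sq.range := hB.to_subgroup _
    have hne : (⟨(Abelianization.of x₀) ^ 2, ⟨_, rfl⟩⟩ : sq.range) ≠ 1 := by
      intro h1
      exact hx₀ (congrArg Subtype.val h1)
    obtain ⟨ν, t, hνt⟩ := exists_sign hT hne
    let ϕ : ↥(X : Subgroup G) →* ℤˣ := ν.comp (sq.rangeRestrict.comp Abelianization.of)
    have hstable := hom_trivial_of_stable hG X ϕ (fun x y g hy => by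
      change ν _ = ν _
      congr 1
      apply Subtype.ext
      exact hSq x y g hy)
    obtain ⟨b, hb⟩ := t.2
    obtain ⟨x, rfl⟩ := QuotientGroup.mk'_surjective _ b
    have h1 := hstable x
    have h2 : ϕ x = ν t := by
      change ν _ = ν _
      congr 1
      exact Subtype.ext hb
    rw [h2, hνt] at h1
    exact absurd h1 (by decide)
  · push_neg at h
    have hsq : ∀ x : ↥(X : Subgroup G), χ x * χ x = 1 := by
      intro x
      have h1 := congrArg (Abelianization.lift χ) (h x)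
      simpa [pow_two] using h1
    have he : χ δ * χ δ = 1 := hsq δ
    let ϕf : ↥(X : Subgroup G) → ℤˣ := fun x => if χ x = 1 then 1 else -1
    have hcases := fun x => hχ x (hsq x)
    let ϕ : ↥(X : Subgroup G) →* ℤˣ := MonoidHom.mk' ϕf (by
      intro a b
      simp only [ϕf, map_mul]
      rcases hcases a with ha | ha <;> rcases hcases b with hb | hb <;> simp [ha, hb, he, hχδ])
    have hϕ : ∀ x, ϕ x = -1 → x ≠ 1 := by
      rintro x hx rfl
      rw [map_one] at hx
      exact absurd hx (by decide)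
    have hϕδ : ϕ δ = -1 := by
      change ϕf δ = -1
      simp [ϕf, hχδ]
    refine false_of_central hG X hN ϕ δ hδc hϕδ (fun x hx => ?_)
    have hδ1 : δ ≠ 1 := hϕ δ hϕδ
    have h2 : orderOf δ = 2 := orderOf_eq_prime (by rw [pow_two]; exact hδ2) hδ1
    rw [h2]
    have h3 := hϕ x hx
    have h4 : orderOf x ≠ 1 := fun h5 => h3 (orderOf_eq_one_iff.mp h5)
    have h5 : 0 < orderOf x := orderOf_pos x
    omega

end Cfsg.Agent.Lib.GL3Syl.Basic
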