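import Mathlib
import Cfsg.Agent.Lib.GL3Syl.Basic

/-!
# Automorphisms of abelian 2-groups, involutions in groups with `4 ∤ |W|`

* `fix_of_fix_inv`: an automorphism of odd order of an abelian 2-group fixing all involutions is trivial.
* `eq_of_commute_inv`, `odd_orderOf_mul`, `exists_decomp`: the consequences of `4 ∤ |W|`.
* `Nm`: the norm of an automorphism of an abelian group.
-/

set_option autoImplicit false
set_option linter.style.haveILetI false
set_option linter.unusedSectionVars false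
set_option linter.unusedVariables false
set_option linter.style.longLine false
set_option linter.style.multiGoal false

namespace Cfsg.Agent.Lib.GL3Syl.Action

section fix
variable {A : Type*} [Group A]

lemma fix_of_sq (ν : MulAut A) {m : ℕ} (hm : Odd m) (hνm : ν ^ m = 1) {a : A} (h : ν (ν a) = a) : ν a = a := by
  obtain ⟨k, rfl⟩ := hm
  have h1 : ∀ j : ℕ, (ν ^ (2 * j)) a = a := by
    intro j
    induction j with
    | zero => simp
    | succ j ih =>
      have : ν ^ (2 * (j + 1)) = ν ^ (2 * j) * (ν * ν) := by rw [mul_add, pow_add, mul_one, pow_two]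
      rw [this, MulAut.mul_apply, MulAut.mul_apply, h, ih]
  have h2 : ν ^ (2 * k + 1) = ν * ν ^ (2 * k) := pow_succ' _ _
  have h3 : (ν ^ (2 * k + 1)) a = a := by rw [hνm]; rfl
  rw [h2, MulAut.mul_apply, h1] at h3
  exact h3

/-- An automorphism of odd order of an abelian 2-group fixing all the involutions is trivial. -/
theorem fix_of_fix_inv (hc : ∀ a b : A, a * b = b * a) (h2 : ∀ a : A, ∃ e : ℕ, a ^ (2 ^ e) = 1) (ν : MulAut A) {m : ℕ} (hm : Odd m) (hνm : ν ^ m = 1)
    (hfix : ∀ s : A, s * s = 1 → ν s = s) (a : A) : ν a = a := by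
  have key : ∀ (e : ℕ) (a : A), a ^ (2 ^ e) = 1 → ν a = a := by
    intro e
    induction e with
    | zero =>
      intro a ha
      have : a = 1 := by simpa using ha
      rw [this, map_one]
    | succ e ih =>
      intro a ha
      have h1 : (a * a) ^ (2 ^ e) = 1 := by
        rw [← pow_two, ← pow_mul, ← pow_succ']
        exact ha
      have h3 : ν (a * a) = a * a := ih _ h1
      rw [map_mul] at h3
      set s := a⁻¹ * ν a with hs
      have hν : ν a = a * s := by rw [hs]; group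
      have hss : s * s = 1 := by
        have : s * s = (a * a)⁻¹ * (ν a * ν a) := by
          rw [hs, mul_inv_rev]
          have h4 : a⁻¹ * ν a * (a⁻¹ * ν a) = a⁻¹ * (ν a * a⁻¹) * ν a := by group
          rw [h4, hc (ν a) a⁻¹]
          group
        rw [this, h3]
        group
      have hsf := hfix s hss
      have hiter : ∀ j : ℕ, (ν ^ j) a = a * s ^ j := by
        intro j
        induction j with
        | zero => simp
        | succ j ihj =>
          rw [pow_succ', MulAut.mul_apply, ihj, map_mul, hν, map_pow, hsf, pow_succ', mul_assoc]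
      have h5 := hiter m
      rw [hνm] at h5
      obtain ⟨k, rfl⟩ := hm
      have h6 : s ^ (2 * k + 1) = s := by
        rw [pow_succ, pow_mul, pow_two, hss, one_pow, one_mul]
      rw [h6] at h5
      have h7 : a = a * s := h5
      have h8 : s = 1 := by simpa using h7.symm
      rw [hν, h8, mul_one]
  obtain ⟨e, he⟩ := h2 a
  exact key e a he

end fix

section inv
variable {Γ : Type*} [Group Γ]

/-- Two commuting involutions in a group whose order is not divisible by four coincide. -/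
theorem eq_of_commute_inv (W : Subgroup Γ) [Finite W] (hW : ¬ 4 ∣ Nat.card W) {a b : Γ} (ha : a ∈ W) (hb : b ∈ W)
    (ha2 : a * a = 1) (hb2 : b * b = 1) (hab : a * b = b * a) (ha1 : a ≠ 1) (hb1 : b ≠ 1) : a = b := by
  classical
  by_contra hne
  have hnd : a * b ≠ 1 := by
    intro h
    apply hne
    have : a⁻¹ = a := inv_eq_of_mul_eq_one_left ha2
    calc a = a⁻¹ := this.symm
      _ = b := (inv_eq_of_mul_eq_one_right h)
  have hna : a * b ≠ a := by simpa using hb1
  have hnb : a * b ≠ b := by simpa using ha1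
  have hba : b * a = a * b := hab.symm
  have hac : a * (a * b) = b := by rw [← mul_assoc, ha2, one_mul]
  have hca : a * b * a = b := by rw [mul_assoc, hba, hac]
  have hcb : a * b * b = a := by rw [mul_assoc, hb2, mul_one]
  have hbc : b * (a * b) = a := by rw [← mul_assoc, hba, hcb]
  have hcc : a * b * (a * b) = 1 := by rw [← mul_assoc, hca, hb2]
  let S : Subgroup Γ :=
    { carrier := {1, a, b, a * b}
      one_mem' := by simp
      mul_mem' := by
        rintro x y (rfl | rfl | rfl | rfl) (rfl | rfl | rfl | rfl)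
        all_goals simp only [ha2, hb2, hba, hac, hca, hcb, hbc, hcc, one_mul, mul_one, Set.mem_insert_iff, Set.mem_singleton_iff, true_or, or_true]
      inv_mem' := by
        rintro x (rfl | rfl | rfl | rfl)
        · simp
        · rw [inv_eq_of_mul_eq_one_left ha2]; simp
        · rw [inv_eq_of_mul_eq_one_left hb2]; simp
        · rw [inv_eq_of_mul_eq_one_left hcc]; simp }
  have hSW : S ≤ W := by
    rintro x (rfl | rfl | rfl | rfl)
    · exact W.one_mem
    · exact ha
    · exact hb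
    · exact W.mul_mem ha hb
  have hcard : Nat.card S = 4 := by
    have : Nat.card S = Set.ncard (S : Set Γ) := (Nat.card_coe_set_eq _)
    rw [this]
    have h4 : (S : Set Γ) = ((({1, a, b, a * b} : Finset Γ) : Set Γ)) := by
      ext x; simp [S]
    rw [h4, Set.ncard_coe_finset]
    rw [Finset.card_insert_of_notMem, Finset.card_insert_of_notMem, Finset.card_insert_of_notMem, Finset.card_singleton]
    · simp only [Finset.mem_singleton]; exact Ne.symm hnb
    · simp only [Finset.mem_insert, Finset.mem_singleton, not_or]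
      exact ⟨hne, Ne.symm hna⟩
    · simp only [Finset.mem_insert, Finset.mem_singleton, not_or]
      exact ⟨Ne.symm ha1, Ne.symm hb1, Ne.symm hnd⟩
  exact hW (hcard ▸ Subgroup.card_dvd_of_le hSW)

/-- The product of two distinct involutions has odd order, when `4 ∤ |W|`. -/
theorem odd_orderOf_mul (W : Subgroup Γ) [Finite W] (hW : ¬ 4 ∣ Nat.card W) {a b : Γ} (ha : a ∈ W) (hb : b ∈ W)
    (ha2 : a * a = 1) (hb2 : b * b = 1) (ha1 : a ≠ 1) (hb1 : b ≠ 1) (hne : a ≠ b) : Odd (orderOf (a * b)) := by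
  by_contra hodd
  rw [Nat.not_odd_iff_even] at hodd
  obtain ⟨m, hm⟩ := hodd
  set t := a * b with ht
  have hai : a⁻¹ = a := inv_eq_of_mul_eq_one_left ha2
  have hbi : b⁻¹ = b := inv_eq_of_mul_eq_one_left hb2
  have hinv : t⁻¹ = b * a := by rw [ht, mul_inv_rev, hai, hbi]
  have htm : t ∈ W := W.mul_mem ha hb
  set r := t ^ m with hr
  have hr2 : r * r = 1 := by
    rw [hr, ← pow_add, ← hm]
    exact pow_orderOf_eq_one t
  have hpos : 0 < orderOf t := by
    rw [← Subgroup.orderOf_mk t htm]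
    exact orderOf_pos _
  have hr1 : r ≠ 1 := by
    intro h
    have := orderOf_dvd_of_pow_eq_one h
    have h2 := Nat.le_of_dvd (by omega) this
    omega
  have hrW : r ∈ W := W.pow_mem htm m
  have hconj : a * t * a = t⁻¹ := by
    rw [hinv, ht]
    calc a * (a * b) * a = (a * a) * (b * a) := by group
      _ = b * a := by rw [ha2, one_mul]
  have hconjm : ∀ j : ℕ, a * t ^ j * a = (t⁻¹) ^ j := by
    intro j
    induction j with
    | zero => simp [ha2]
    | succ j ih =>
      calc a * t ^ (j + 1) * a = (a * t ^ j * a) * (a * t * a) := by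
            rw [pow_succ]
            calc a * (t ^ j * t) * a = a * t ^ j * 1 * t * a := by group
              _ = a * t ^ j * (a * a) * t * a := by rw [ha2]
              _ = _ := by group
        _ = (t⁻¹) ^ (j + 1) := by rw [ih, hconj, pow_succ]
  have hcomm : a * r = r * a := by
    have h1 : a * r * a = r := by
      rw [hr, hconjm, inv_pow]
      exact inv_eq_of_mul_eq_one_left hr2
    calc a * r = a * r * (a * a) := by rw [ha2, mul_one]
      _ = (a * r * a) * a := by group
      _ = r * a := by rw [h1]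
  have hra : a = r := eq_of_commute_inv W hW ha hrW ha2 hr2 hcomm ha1 hr1
  have hct : a * t = t * a := by
    rw [hra, hr, ← pow_succ', ← pow_succ]
  have hab : a * b = b * a := by
    have h1 : a * (a * b) = (a * b) * a := hct
    have h2 : a * (a * b) = b := by
      calc a * (a * b) = (a * a) * b := by group
        _ = b := by rw [ha2, one_mul]
    rw [h2] at h1
    calc a * b = a * (b) := rfl
      _ = a * (a * b * a) := by rw [← h1]
      _ = (a * a) * b * a := by group
      _ = b * a := by rw [ha2, one_mul]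
  exact hne (eq_of_commute_inv W hW ha hb ha2 hb2 hab ha1 hb1)

/-- Decomposition of an element commuting with an involution when `4 ∤ |W|`. -/
theorem exists_decomp (W : Subgroup Γ) [Finite W] (hW : ¬ 4 ∣ Nat.card W) {α w : Γ} (hα : α ∈ W) (hw : w ∈ W)
    (hα2 : α * α = 1) (hα1 : α ≠ 1) (hc : w * α = α * w) :
    ∃ (ν s : Γ) (m : ℕ), w = ν * s ∧ ν * α = α * ν ∧ Odd m ∧ ν ^ m = 1 ∧ (s = 1 ∨ s = α) := by
  have hdvd : orderOf w ∣ Nat.card W := by
    have h1 : orderOf (⟨w, hw⟩ : W) ∣ Nat.card W := orderOf_dvd_natCard _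
    rwa [Subgroup.orderOf_mk] at h1
  have h4 : ¬ 4 ∣ orderOf w := fun h => hW (h.trans hdvd)
  have hcomm : ∀ j : ℕ, w ^ j * α = α * w ^ j := by
    intro j
    exact (Commute.pow_left hc j)
  have hwpow : w ^ orderOf w = 1 := pow_orderOf_eq_one w
  rcases Nat.even_or_odd (orderOf w) with he | ho
  · obtain ⟨m, hm⟩ := he
    have hm' : orderOf w = 2 * m := by omega
    have hmo : Odd m := by
      rw [← Nat.not_even_iff_odd]
      rintro ⟨q, hq⟩
      apply h4
      rw [hm', hq]
      exact ⟨q, by ring⟩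
    refine ⟨w ^ (m + 1), w ^ m, m, ?_, hcomm _, hmo, ?_, ?_⟩
    · rw [← pow_add]
      have : m + 1 + m = orderOf w + 1 := by omega
      rw [this, pow_succ, hwpow, one_mul]
    · obtain ⟨q, hq⟩ := hmo.add_one
      rw [← pow_mul]
      have : (m + 1) * m = orderOf w * q := by rw [hm', hq]; ring
      rw [this, pow_mul, hwpow, one_pow]
    · by_cases hs : w ^ m = 1
      · exact Or.inl hs
      · right
        apply eq_of_commute_inv W hW (W.pow_mem hw m) hα _ hα2 (hcomm m) hs hα1
        rw [← pow_add]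
        have : m + m = orderOf w := by omega
        rw [this, hwpow]
  · exact ⟨w, 1, orderOf w, by simp, hc, ho, hwpow, Or.inl rfl⟩

end inv

section norm
variable {A : Type*} [Group A]

/-- The norm of an automorphism. -/
def Nm (t : MulAut A) : ℕ → A → A
  | 0, _ => 1
  | k + 1, y => Nm t k y * (t ^ k) y

lemma Nm_zero (t : MulAut A) (y : A) : Nm t 0 y = 1 := rfl

lemma Nm_succ (t : MulAut A) (k : ℕ) (y : A) : Nm t (k + 1) y = Nm t k y * (t ^ k) y := rfl

variable (hc : ∀ a b : A, a * b = b * a)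
include hc

lemma Nm_mul (t : MulAut A) (k : ℕ) (a b : A) : Nm t k (a * b) = Nm t k a * Nm t k b := by
  induction k with
  | zero => simp [Nm_zero]
  | succ k ih =>
    rw [Nm_succ, Nm_succ, Nm_succ, ih, map_mul]
    calc Nm t k a * Nm t k b * ((t ^ k) a * (t ^ k) b) = Nm t k a * (Nm t k b * (t ^ k) a) * (t ^ k) b := by group
      _ = Nm t k a * ((t ^ k) a * Nm t k b) * (t ^ k) b := by rw [hc (Nm t k b)]
      _ = _ := by group

lemma Nm_shift (t : MulAut A) (k : ℕ) (y : A) : Nm t (k + 1) y = y * t (Nm t k y) := by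
  induction k with
  | zero => simp [Nm_succ, Nm_zero]
  | succ k ih =>
    calc Nm t (k + 1 + 1) y = Nm t (k + 1) y * (t ^ (k + 1)) y := rfl
      _ = y * t (Nm t k y) * (t ^ (k + 1)) y := by rw [ih]
      _ = y * (t (Nm t k y) * t ((t ^ k) y)) := by rw [pow_succ', MulAut.mul_apply, mul_assoc]
      _ = y * t (Nm t k y * (t ^ k) y) := by rw [map_mul]
      _ = y * t (Nm t (k + 1) y) := rfl

lemma Nm_fixed (t : MulAut A) {k : ℕ} (hk : t ^ k = 1) (y : A) : t (Nm t k y) = Nm t k y := by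
  have h1 := Nm_shift hc t k y
  rw [Nm_succ, hk] at h1
  have h2 : Nm t k y * y = y * t (Nm t k y) := h1
  rw [hc y] at h2
  exact (mul_right_cancel h2).symm

lemma Nm_of_fixed (t : MulAut A) (k : ℕ) {y : A} (hy : t y = y) : Nm t k y = y ^ k := by
  have h1 : ∀ j : ℕ, (t ^ j) y = y := by
    intro j
    induction j with
    | zero => simp
    | succ j ih => rw [pow_succ', MulAut.mul_apply, ih, hy]
  induction k with
  | zero => simp [Nm_zero]
  | succ k ih => rw [Nm_succ, ih, h1, pow_succ]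

lemma Nm_reflect (t : MulAut A) (k : ℕ) (y : A) : (t ^ k) (Nm t⁻¹ (k + 1) y) = Nm t (k + 1) y := by
  induction k with
  | zero => simp [Nm_succ, Nm_zero]
  | succ k ih =>
    rw [Nm_succ t⁻¹ (k + 1) y, map_mul, Nm_shift hc t (k + 1) y, ← ih, hc y]
    congr 1
    · rw [pow_succ']; rfl
    · rw [inv_pow]
      exact (t ^ (k + 1)).apply_symm_apply y

lemma Nm_alpha (t α : MulAut A) (hα : α * t * α⁻¹ = t⁻¹) {k : ℕ} (hk : t ^ k = 1) (hk0 : 0 < k) (y : A) :
    Nm t k (α y) = α (Nm t k y) := by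
  have h2 : α * t = t⁻¹ * α := by rw [← hα]; group
  have h1 : t * α = α * t⁻¹ := by
    calc t * α = t * (α * t) * t⁻¹ := by group
      _ = t * (t⁻¹ * α) * t⁻¹ := by rw [h2]
      _ = α * t⁻¹ := by group
  have hta : ∀ j : ℕ, t ^ j * α = α * t⁻¹ ^ j := by
    intro j
    induction j with
    | zero => simp
    | succ j ih =>
      calc t ^ (j + 1) * α = t ^ j * (t * α) := by rw [pow_succ, mul_assoc]
        _ = (t ^ j * α) * t⁻¹ := by rw [h1, mul_assoc]
        _ = α * t⁻¹ ^ (j + 1) := by rw [ih, pow_succ, mul_assoc]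
  have hv : ∀ j : ℕ, Nm t j (α y) = α (Nm t⁻¹ j y) := by
    intro j
    induction j with
    | zero => simp [Nm_zero]
    | succ j ih =>
      rw [Nm_succ, Nm_succ, ih, map_mul]
      congr 1
      have := congrArg (fun f : MulAut A => f y) (hta j)
      exact this
  obtain ⟨K, rfl⟩ : ∃ K, k = K + 1 := ⟨k - 1, by omega⟩
  rw [hv]
  congr 1
  have hk' : t⁻¹ ^ (K + 1) = 1 := by rw [inv_pow, hk, inv_one]
  have hfix := Nm_fixed hc t⁻¹ hk' y
  set v := Nm t⁻¹ (K + 1) y with hvd
  have htv : t v = v := by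
    have : t (t⁻¹ v) = t v := by rw [hfix]
    rw [← this]
    exact t.apply_symm_apply v
  have htv' : ∀ j : ℕ, (t ^ j) v = v := by
    intro j
    induction j with
    | zero => simp
    | succ j ih => rw [pow_succ', MulAut.mul_apply, ih, htv]
  have := Nm_reflect hc t K y
  rw [← hvd, htv'] at this
  exact this

end norm

section step
variable {A : Type*} [Group A] [Finite A] (hc : ∀ a b : A, a * b = b * a) (h2 : ∀ a : A, ∃ e : ℕ, a ^ (2 ^ e) = 1)
variable (α : MulAut A) (hα2 : α * α = 1) (hα1 : α ≠ 1) {ε δ : A}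
  (hEr : ∀ y : A, (α y * y⁻¹) * (α y * y⁻¹) = 1 → α y * y⁻¹ = 1 ∨ α y * y⁻¹ = ε)
  (hEs : ∀ s : A, α s = s → s * s = 1 → s = 1 ∨ s = δ ∨ s = ε ∨ s = δ * ε)
  (hF : ∀ a b : A, a * a = 1 → b * b = 1 → α a ≠ a → α b ≠ b → α (a * b) = a * b)
  (hαε : α ε = ε) (hαδ : α δ = δ) (hε2 : ε * ε = 1) (hδ2 : δ * δ = 1) (hε1 : ε ≠ 1) (hδ1 : δ ≠ 1) (hδε : δ ≠ ε)

include h2 in
/-- Powers of an element reach an involution. -/
lemma exists_two_pow_inv {r : A} (hr : r ≠ 1) : ∃ j : ℕ, r ^ (2 ^ j) * r ^ (2 ^ j) = 1 ∧ r ^ (2 ^ j) ≠ 1 := by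
  classical
  obtain ⟨e, he⟩ := h2 r
  have hex : ∃ e, r ^ (2 ^ e) = 1 := ⟨e, he⟩
  set n := Nat.find hex with hn
  have hn1 : r ^ (2 ^ n) = 1 := Nat.find_spec hex
  have hn0 : n ≠ 0 := by
    intro h0
    rw [h0] at hn1
    exact hr (by simpa using hn1)
  obtain ⟨m, hm⟩ := Nat.exists_eq_succ_of_ne_zero hn0
  refine ⟨m, ?_, Nat.find_min hex (m := m) (by omega)⟩
  rw [← pow_add, ← two_mul, ← pow_succ', ← Nat.succ_eq_add_one, ← hm]
  exact hn1

include hc in
lemma comm_pow_mul (a b : A) (j : ℕ) : (a * b) ^ j = a ^ j * b ^ j := (show Commute a b from hc a b).mul_pow j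

include hc h2 hEr in
/-- `ε` is a commutator with `α`. -/
lemma exists_eps_form {y : A} (hy : α y ≠ y) : ∃ j : ℕ, α (y ^ (2 ^ j)) * (y ^ (2 ^ j))⁻¹ = ε := by
  have hr : α y * y⁻¹ ≠ 1 := by
    intro h
    exact hy (mul_inv_eq_one.mp h)
  obtain ⟨j, hj1, hj2⟩ := exists_two_pow_inv h2 hr
  refine ⟨j, ?_⟩
  have e1 : (α y * y⁻¹) ^ (2 ^ j) = α (y ^ (2 ^ j)) * (y ^ (2 ^ j))⁻¹ := by
    rw [comm_pow_mul hc, map_pow, inv_pow]
  rw [e1] at hj1 hj2
  exact (hEr _ hj1).resolve_left hj2

include hc h2 hEr hEs hαε hαδ hε2 hδ2 hε1 hδ1 hδε hα2 hα1 in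
/-- An element of odd order commuting with `α` is trivial. -/
lemma nu_eq_one (ν : MulAut A) {m : ℕ} (hm : Odd m) (hνm : ν ^ m = 1) (hν : ν * α = α * ν) : ν = 1 := by
  have hcomm : ∀ x, ν (α x) = α (ν x) := fun x => congrArg (fun f : MulAut A => f x) hν
  -- `ν` fixes `ε`
  obtain ⟨y₀, hy₀⟩ : ∃ y, α y ≠ y := by
    by_contra h
    push_neg at h
    exact hα1 (MulEquiv.ext h)
  obtain ⟨j, hj⟩ := exists_eps_form hc h2 α hEr hy₀
  set y' := y₀ ^ (2 ^ j) with hy'
  have hνε : ν ε = ε := by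
    have h1 : ν ε = α (ν y') * (ν y')⁻¹ := by rw [← hj, map_mul, hcomm, map_inv]
    have h3 : (α (ν y') * (ν y')⁻¹) * (α (ν y') * (ν y')⁻¹) = 1 := by
      rw [← h1, ← map_mul, hε2, map_one]
    rcases hEr _ h3 with h4 | h4
    · rw [h4] at h1
      exact absurd ((map_eq_one_iff ν ν.injective).mp h1) hε1
    · rw [h1, h4]
  -- `ν` preserves the fixed elements
  have hfix : ∀ s, α s = s → α (ν s) = ν s := fun s hs => by rw [← hcomm, hs]
  have hνδ : ν δ = δ := by
    have h1 : ν δ * ν δ = 1 := by rw [← map_mul, hδ2, map_one]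
    have h3 : ν δ ≠ 1 := fun h => hδ1 ((map_eq_one_iff ν ν.injective).mp h)
    rcases hEs _ (hfix δ hαδ) h1 with h4 | h4 | h4 | h4
    · exact absurd h4 h3
    · exact h4
    · exact absurd (ν.injective (h4.trans hνε.symm)) hδε
    · have h5 : ν (ν δ) = δ := by
        rw [h4, map_mul, h4, hνε, mul_assoc, hε2, mul_one]
      exact fix_of_sq ν hm hνm h5
  have hνδε : ν (δ * ε) = δ * ε := by rw [map_mul, hνδ, hνε]
  have hinvfix : ∀ s : A, s * s = 1 → ν s = s := by
    intro e he
    set r := α e * e⁻¹ with hr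
    have hr2 : r * r = 1 := by
      have h1 : r * r = α (e * e) * (e * e)⁻¹ := by
        rw [map_mul, mul_inv_rev, hr, mul_assoc, ← mul_assoc e⁻¹, hc e⁻¹ (α e), mul_assoc (α e), mul_assoc]
      rw [h1, he, map_one, inv_one, one_mul]
    have hνr : ν r = r := by
      rcases hEr e hr2 with h | h
      · rw [← hr] at h; rw [h, map_one]
      · rw [← hr] at h; rw [h, hνε]
    have hαe : α e = r * e := by rw [hr]; group
    set s := ν e * e⁻¹ with hs
    have hαs : α s = s := by
      have h1 : α s = ν (α e) * (α e)⁻¹ := by rw [hs, map_mul, ← hcomm, map_inv]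
      rw [h1, hαe, map_mul, hνr, mul_inv_rev, hs]
      calc r * ν e * (e⁻¹ * r⁻¹) = r * (ν e * e⁻¹) * r⁻¹ := by group
        _ = (ν e * e⁻¹) * r * r⁻¹ := by rw [hc r]
        _ = ν e * e⁻¹ := by group
    have hs2 : s * s = 1 := by
      have h1 : s * s = ν (e * e) * (e * e)⁻¹ := by
        rw [map_mul, mul_inv_rev, hs, mul_assoc, ← mul_assoc e⁻¹, hc e⁻¹ (ν e), mul_assoc (ν e), mul_assoc]
      rw [h1, he, map_one, inv_one, one_mul]
    have hνs : ν s = s := by
      rcases hEs s hαs hs2 with h | h | h | h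
      · rw [h, map_one]
      · rw [h, hνδ]
      · rw [h, hνε]
      · rw [h, hνδε]
    have hνe : ν e = s * e := by rw [hs]; group
    have h5 : ν (ν e) = e := by
      rw [hνe, map_mul, hνs, hνe, ← mul_assoc, hs2, one_mul]
    exact fix_of_sq ν hm hνm h5
  exact MulEquiv.ext (fun a => fix_of_fix_inv hc h2 ν hm hνm hinvfix a)

omit [Finite A] in
include hc in
lemma sq_of_inv (τ : MulAut A) {y : A} (hy : y * y = 1) : (τ y * y⁻¹) * (τ y * y⁻¹) = 1 := by
  have hyi : y⁻¹ = y := inv_eq_of_mul_eq_one_left hy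
  have h1 : τ y * τ y = 1 := by rw [← map_mul, hy, map_one]
  rw [hyi]
  calc τ y * y * (τ y * y) = τ y * (y * τ y) * y := by group
    _ = τ y * (τ y * y) * y := by rw [hc y]
    _ = (τ y * τ y) * (y * y) := by group
    _ = 1 := by rw [h1, hy, one_mul]

include hc h2 hEr hEs hαε hαδ hε2 hδ2 hε1 hδ1 hδε hα2 hα1 in
/-- An element of `W` commuting with `α` is `1` or `α`. -/
theorem eq_one_or_of_comm (W : Subgroup (MulAut A)) [Finite W] (hW : ¬ 4 ∣ Nat.card W) (hαW : α ∈ W) {θ : MulAut A}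
    (hθ : θ ∈ W) (hθα : θ * α = α * θ) : θ = 1 ∨ θ = α := by
  obtain ⟨ν, s, m, h1, hν, hm, hνm, hs⟩ := exists_decomp W hW hαW hθ hα2 hα1 hθα
  have h3 := nu_eq_one hc h2 α hα2 hα1 hEr hEs hαε hαδ hε2 hδ2 hε1 hδ1 hδε ν hm hνm hν
  rw [h3, one_mul] at h1
  rcases hs with h4 | h4
  · left; rw [h1, h4]
  · right; rw [h1, h4]

include hc h2 hEr hαε hε2 hε1 hα2 hα1 in
/-- If `β = θ α θ⁻¹ ≠ α` then `θ ε ≠ ε`, and `t = α β` fixes only `α`-fixed elements. -/
theorem conj_fixed (W : Subgroup (MulAut A)) [Finite W] (hW : ¬ 4 ∣ Nat.card W) (hαW : α ∈ W) {θ : MulAut A}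
    (hθ : θ ∈ W) (hne : θ * α * θ⁻¹ ≠ α) :
    Odd (orderOf (α * (θ * α * θ⁻¹))) ∧ ∀ y : A, (α * (θ * α * θ⁻¹)) y = y → α y = y := by
  set β := θ * α * θ⁻¹ with hβ
  have hβ2 : β * β = 1 := by
    rw [hβ]
    calc θ * α * θ⁻¹ * (θ * α * θ⁻¹) = θ * (α * α) * θ⁻¹ := by group
      _ = 1 := by rw [hα2]; group
  have hβW : β ∈ W := W.mul_mem (W.mul_mem hθ hαW) (W.inv_mem hθ)
  have hβ1 : β ≠ 1 := by
    intro h
    apply hα1
    have h1 : θ * α * θ⁻¹ = 1 := h
    have h2 : θ * α = θ := by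
      calc θ * α = (θ * α * θ⁻¹) * θ := by group
        _ = θ := by rw [h1, one_mul]
    simpa using h2
  have hodd : Odd (orderOf (α * β)) := odd_orderOf_mul W hW hαW hβW hα2 hβ2 hα1 hβ1 hne.symm
  have hpow : (α * β) ^ orderOf (α * β) = 1 := pow_orderOf_eq_one _
  have hβa : ∀ y, β y = θ (α (θ⁻¹ y)) := fun y => rfl
  have hθθ : ∀ y, θ (θ⁻¹ y) = y := fun y => θ.apply_symm_apply y
  have hθθ' : ∀ y, θ⁻¹ (θ y) = y := fun y => θ.symm_apply_apply y
  have hαα : ∀ y, α (α y) = y := fun y => congrArg (fun f : MulAut A => f y) hα2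
  have hθε : θ ε ≠ ε := by
    intro heq
    have hθi : θ⁻¹ ε = ε := by
      rw [← heq, hθθ', heq]
    have hβε : β ε = ε := by rw [hβa, hθi, hαε, heq]
    have htε : (α * β) ε = ε := by
      change α (β ε) = ε
      rw [hβε, hαε]
    have key : ∀ e : A, e * e = 1 → (α * β) e = e := by
      intro e he
      obtain ⟨c₁, hc₁, hc₁'⟩ : ∃ c, (c = 1 ∨ c = ε) ∧ α e = c * e := by
        refine ⟨α e * e⁻¹, hEr e (sq_of_inv hc α he), by group⟩
      obtain ⟨c₂, hc₂, hc₂'⟩ : ∃ c, (c = 1 ∨ c = ε) ∧ β e = c * e := by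
        have hu : θ⁻¹ e * θ⁻¹ e = 1 := by rw [← map_mul, he, map_one]
        have h3 := hEr _ (sq_of_inv hc α hu)
        refine ⟨θ (α (θ⁻¹ e) * (θ⁻¹ e)⁻¹), ?_, ?_⟩
        · rcases h3 with h3 | h3
          · left; rw [h3, map_one]
          · right; rw [h3, heq]
        · rw [hβa, map_mul, map_inv, hθθ]
          group
      have htc : ∀ c, (c = 1 ∨ c = ε) → (α * β) c = c := by
        rintro c (rfl | rfl)
        · exact map_one _
        · exact htε
      have hαc : ∀ c, (c = 1 ∨ c = ε) → α c = c := by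
        rintro c (rfl | rfl)
        · exact map_one _
        · exact hαε
      have hcc : ∀ c, (c = 1 ∨ c = ε) → c * c = 1 := by
        rintro c (rfl | rfl)
        · exact one_mul _
        · exact hε2
      have hte : (α * β) e = (c₂ * c₁) * e := by
        change α (β e) = _
        rw [hc₂', map_mul, hαc c₂ hc₂, hc₁', mul_assoc]
      have hsq : (α * β) ((α * β) e) = e := by
        rw [hte, map_mul, map_mul, htc c₂ hc₂, htc c₁ hc₁, hte]
        calc c₂ * c₁ * (c₂ * c₁ * e) = c₂ * (c₁ * c₂) * c₁ * e := by group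
          _ = c₂ * (c₂ * c₁) * c₁ * e := by rw [hc c₁]
          _ = (c₂ * c₂) * (c₁ * c₁) * e := by group
          _ = e := by rw [hcc c₂ hc₂, hcc c₁ hc₁, one_mul, one_mul]
      exact fix_of_sq (α * β) hodd hpow hsq
    have ht1 : α * β = 1 := MulEquiv.ext (fun a => fix_of_fix_inv hc h2 (α * β) hodd hpow key a)
    apply hne
    calc β = α * α * β := by rw [hα2, one_mul]
      _ = α * (α * β) := by group
      _ = α := by rw [ht1, mul_one]
  refine ⟨hodd, ?_⟩
  intro y hty
  by_contra hy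
  obtain ⟨j, hj⟩ := exists_eps_form hc h2 α hEr hy
  set y' := y ^ (2 ^ j) with hy'
  have hty' : (α * β) y' = y' := by rw [hy', map_pow, hty]
  have hβy' : β y' = α y' := by
    have h1 : α (β y') = y' := hty'
    rw [← h1, hαα, h1]
  set u := θ⁻¹ y' with hu
  have h3 : θ (α u * u⁻¹) = ε := by
    rw [map_mul, map_inv, hu, hθθ, ← hβa, hβy', hj]
  have h4 : (α u * u⁻¹) * (α u * u⁻¹) = 1 := by
    apply θ.injective
    rw [map_mul, h3, hε2, map_one]
  rcases hEr u h4 with h5 | h5
  · rw [h5, map_one] at h3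
    exact hε1 h3.symm
  · rw [h5] at h3
    exact hθε h3

omit [Finite A] in
include hc hF hα2 hαε hαδ hε2 hδ2 hε1 hδ1 hδε in
/-- An automorphism of odd order inverted by `α` has a nontrivial fixed point. -/
theorem exists_fixed (t : MulAut A) {m : ℕ} (hm : Odd m) (htm : t ^ m = 1) (hαt : α * t * α⁻¹ = t⁻¹) : ∃ y : A, y ≠ 1 ∧ t y = y := by
  by_contra hno
  push_neg at hno
  have hαα : ∀ y, α (α y) = y := fun y => congrArg (fun f : MulAut A => f y) hα2
  have h1 : α * t = t⁻¹ * α := by rw [← hαt]; group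
  have h2 : ∀ s, α (t s) = t⁻¹ (α s) := fun s => congrArg (fun f : MulAut A => f s) h1
  have h3 : ∀ s, α s = s → s ≠ 1 → α (t s) ≠ t s := by
    intro s hs hs1 h4
    rw [h2, hs] at h4
    have h5 : t (t s) = s := by
      rw [← h4]
      exact t.apply_symm_apply s
    exact hno s hs1 (fix_of_sq t hm htm h5)
  have h4 : t δ * t δ = 1 := by rw [← map_mul, hδ2, map_one]
  have h5 : t ε * t ε = 1 := by rw [← map_mul, hε2, map_one]
  have h6 := hF _ _ h4 h5 (h3 δ hαδ hδ1) (h3 ε hαε hε1)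
  rw [← map_mul] at h6
  have h7 : δ * ε ≠ 1 := by
    intro h
    apply hδε
    calc δ = δ * (ε * ε) := by rw [hε2, mul_one]
      _ = (δ * ε) * ε := by group
      _ = ε := by rw [h, one_mul]
  exact h3 _ (by rw [map_mul, hαδ, hαε]) h7 h6

end step

section char
variable {A : Type*} [Group A] [Finite A] (hc : ∀ a b : A, a * b = b * a) (h2 : ∀ a : A, ∃ e : ℕ, a ^ (2 ^ e) = 1)

include hc h2 in
/-- The character produced from a fixed-point subgroup. -/
theorem exists_char (α t : MulAut A) {k : ℕ} (hk : Odd k) (htk : t ^ k = 1) (hαt : α * t * α⁻¹ = t⁻¹)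
    (hfix : ∀ y : A, t y = y → α y = y) {y₀ : A} (hy₀ : y₀ ≠ 1) (hty₀ : t y₀ = y₀) :
    ∃ (D : Subgroup A) (N : A →* D) (ν : D →* ℤˣ) (z : D), (∀ y, N (α y) = N y) ∧ ν z = -1 ∧ ν (N z) = -1 ∧
      α z = z ∧ ∀ w : D, ν w = -1 → orderOf z ≤ orderOf w := by
  classical
  let D : Subgroup A :=
    { carrier := {y | t y = y}
      one_mem' := map_one t
      mul_mem' := fun {a b} ha hb => by
        change t (a * b) = a * b
        rw [map_mul, ha, hb]
      inv_mem' := fun {a} ha => by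
        change t a⁻¹ = a⁻¹
        rw [map_inv, ha] }
  have hD : ∀ y : D, t y = y := fun y => y.2
  have hD2 : IsPGroup 2 D := by
    intro g
    obtain ⟨e, he⟩ := h2 g
    exact ⟨e, Subtype.ext (by simpa using he)⟩
  have hne : (⟨y₀, hty₀⟩ : D) ≠ 1 := fun h => hy₀ (congrArg Subtype.val h)
  obtain ⟨ν, t₀, hνt₀⟩ := Basic.exists_sign hD2 hne
  obtain ⟨z, hz, hmin⟩ := Set.exists_min_image {w : D | ν w = -1} orderOf (Set.toFinite _) ⟨t₀, hνt₀⟩
  have hk0 : 0 < k := hk.pos
  let N : A →* D := MonoidHom.mk' (fun y => ⟨Nm t k y, Nm_fixed hc t htk y⟩) (fun a b => Subtype.ext (Nm_mul hc t k a b))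
  have hNap : ∀ y, ((N y : D) : A) = Nm t k y := fun y => rfl
  refine ⟨D, N, ν, z, ?_, hz, ?_, hfix _ z.2, fun w hw => hmin w hw⟩
  · intro y
    apply Subtype.ext
    rw [hNap, hNap, Nm_alpha hc t α hαt htk hk0 y]
    exact hfix _ (Nm_fixed hc t htk y)
  · have h1 : N z = z ^ k := by
      apply Subtype.ext
      rw [hNap, Nm_of_fixed hc t k z.2]
      simp
    rw [h1, map_pow, hz, hk.neg_one_pow]

end char

end Cfsg.Agent.Lib.GL3Syl.Action
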