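import Mathlib
import Cfsg.Agent.Lib.GL3Syl.Basic
import Cfsg.Agent.Lib.GL3Syl.Action
import Cfsg.Agent.Lib.Transfer.Basic

/-!
# The group theory of `S1906`

A Sylow 2-subgroup `X` of `G` with an abelian subgroup `L` of index two, whose elements of `X \ L` have central square,
with few central involutions. `G` has no subgroup of index two. Contradiction.
-/

set_option autoImplicit false
set_option linter.style.haveILetI false
set_option linter.unusedSectionVars false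
set_option linter.unusedVariables false
set_option linter.style.longLine false
set_option linter.style.multiGoal false

namespace Cfsg.Agent.Lib.GL3Syl.Main

open Cfsg.Agent.Lib.LocalStruct.ThompsonIdx

variable {G : Type*} [Group G] [Finite G]

/-- `z` lies in the centre of `X`. -/
def IsC (X : Subgroup G) (z : G) : Prop := z ∈ X ∧ ∀ y ∈ X, y * z = z * y

/-- The hypotheses of the group theoretic part. -/
structure Hyp (X : Sylow 2 G) (A : Type*) [CommGroup A] where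
  L : Subgroup G
  hLX : L ≤ (X : Subgroup G)
  hLc : ∀ a ∈ L, ∀ b ∈ L, a * b = b * a
  hLi : L.relIndex (X : Subgroup G) = 2
  hsq : ∀ x ∈ (X : Subgroup G), x ∉ L → IsC X (x * x)
  hFc : ∀ w ∈ L, ∀ w' ∈ L, IsC X (w * w) → IsC X (w' * w') → ¬ IsC X w → ¬ IsC X w' → IsC X (w * w')
  δ : G
  ε : G
  hδ : IsC X δ
  hε : IsC X ε
  hδ2 : δ * δ = 1
  hε2 : ε * ε = 1
  hδ1 : δ ≠ 1
  hε1 : ε ≠ 1
  hδε : δ ≠ ε
  hinv : ∀ z, IsC X z → z * z = 1 → z = 1 ∨ z = δ ∨ z = ε ∨ z = δ * ε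
  hcomm : ∀ x ∈ ⁅(X : Subgroup G), (X : Subgroup G)⁆, x * x = 1 → x = 1 ∨ x = ε
  χ : ↥(X : Subgroup G) →* A
  hχδ : χ ⟨δ, hδ.1⟩ ≠ 1
  hχ : ∀ x, χ x * χ x = 1 → χ x = 1 ∨ χ x = χ ⟨δ, hδ.1⟩
  d : G
  hd : d ∈ (X : Subgroup G)
  hd2 : d * d = 1
  hdc : ¬ IsC X d
  hG : ∀ (f : G →* ℤˣ) (g : G), f g = 1

variable {X : Sylow 2 G} {A : Type*} [CommGroup A] (H : Hyp X A)
include H

lemma sq_mem {x : G} (hx : x ∈ (X : Subgroup G)) : x * x ∈ H.L :=
  (mul_mem_iff H.hLi hx hx).mpr Iff.rfl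

lemma exists_not_mem : ∃ s ∈ (X : Subgroup G), s ∉ H.L := by
  by_contra h
  push_neg at h
  have h1 : H.L.relIndex (X : Subgroup G) = 1 := Subgroup.relIndex_eq_one.mpr h
  have h2 := H.hLi
  omega

lemma mul_mem_of_not {a b : G} (ha : a ∈ (X : Subgroup G)) (hb : b ∈ (X : Subgroup G)) (ha' : a ∉ H.L) (hb' : b ∉ H.L) : a * b ∈ H.L :=
  (mul_mem_iff H.hLi ha hb).mpr ⟨fun h => absurd h ha', fun h => absurd h hb'⟩

/-- An element of `L` commuting with an element of `X \ L` is central. -/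
lemma central_of_comm {σ z : G} (hσ : σ ∈ (X : Subgroup G)) (hσL : σ ∉ H.L) (hz : z ∈ H.L) (hc : σ * z = z * σ) : IsC X z := by
  refine ⟨H.hLX hz, fun y hy => ?_⟩
  by_cases hyL : y ∈ H.L
  · exact H.hLc y hyL z hz
  · have h1 := H.hLc _ (mul_mem_of_not H hy hσ hyL hσL) z hz
    have h4 : y * z * σ = z * y * σ := by
      calc y * z * σ = y * (z * σ) := by group
        _ = y * (σ * z) := by rw [hc]
        _ = y * σ * z := by group
        _ = z * (y * σ) := h1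
        _ = z * y * σ := by group
    exact mul_right_cancel h4

/-- Central elements lie in `L`. -/
lemma central_mem {z : G} (hz : IsC X z) : z ∈ H.L := by
  by_contra hzL
  apply H.hdc
  by_cases hdL : H.d ∈ H.L
  · exact central_of_comm H hz.1 hzL hdL (hz.2 _ H.hd).symm
  · refine ⟨H.hd, fun y hy => ?_⟩
    have h1 : H.d * z ∈ H.L := mul_mem_of_not H H.hd hz.1 hdL hzL
    by_cases hyL : y ∈ H.L
    · have h2 := H.hLc _ hyL _ h1
      have h3 := hz.2 y hy
      have h4 : y * H.d * z = H.d * y * z := by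
        calc y * H.d * z = y * (H.d * z) := by group
          _ = H.d * z * y := h2
          _ = H.d * (z * y) := by group
          _ = H.d * (y * z) := by rw [h3]
          _ = H.d * y * z := by group
      exact mul_right_cancel h4
    · have h2 := H.hLc _ (mul_mem_of_not H hy hz.1 hyL hzL) _ h1
      have h3 := hz.2 y hy
      have h5 := hz.2 H.d H.hd
      have h4 : y * H.d * (z * z) = H.d * y * (z * z) := by
        calc y * H.d * (z * z) = y * (H.d * z) * z := by group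
          _ = y * (z * H.d) * z := by rw [h5]
          _ = y * z * (H.d * z) := by group
          _ = H.d * z * (y * z) := h2
          _ = H.d * (z * y) * z := by group
          _ = H.d * (y * z) * z := by rw [h3]
          _ = H.d * y * (z * z) := by group
      exact mul_right_cancel h4

/-- A noncentral pair. -/
lemma eps_mem_comm : H.ε ∈ ⁅(X : Subgroup G), (X : Subgroup G)⁆ := by
  obtain ⟨y, hy, hyd⟩ : ∃ y ∈ (X : Subgroup G), y * H.d ≠ H.d * y := by
    by_contra h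
    push_neg at h
    exact H.hdc ⟨H.hd, h⟩
  have hr : y * H.d * y⁻¹ * H.d⁻¹ ∈ ⁅(X : Subgroup G), (X : Subgroup G)⁆ :=
    Subgroup.commutator_mem_commutator hy H.hd
  have hr1 : y * H.d * y⁻¹ * H.d⁻¹ ≠ 1 := by
    intro h
    apply hyd
    rw [mul_inv_eq_one, mul_inv_eq_iff_eq_mul] at h
    exact h
  set r := y * H.d * y⁻¹ * H.d⁻¹ with hrd
  have h2 : ∀ a : ↥(X : Subgroup G), ∃ e : ℕ, a ^ (2 ^ e) = 1 := X.isPGroup'
  have hrX : r ∈ (X : Subgroup G) :=
    (X : Subgroup G).mul_mem ((X : Subgroup G).mul_mem ((X : Subgroup G).mul_mem hy H.hd) ((X : Subgroup G).inv_mem hy)) ((X : Subgroup G).inv_mem H.hd)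
  obtain ⟨j, hj1, hj2⟩ := Action.exists_two_pow_inv h2 (r := (⟨r, hrX⟩ : ↥(X : Subgroup G))) (fun h => hr1 (congrArg Subtype.val h))
  have hj1' : r ^ (2 ^ j) * r ^ (2 ^ j) = 1 := by simpa using congrArg Subtype.val hj1
  have hj2' : r ^ (2 ^ j) ≠ 1 := fun h => hj2 (Subtype.ext (by simpa using h))
  have h5 := (H.hcomm _ (Subgroup.pow_mem _ hr _) hj1').resolve_left hj2'
  rw [← h5]
  exact Subgroup.pow_mem _ hr _

/-- The centre of `X` as a subgroup. -/
def Zs (X : Subgroup G) : Subgroup G := Subgroup.centralizer (X : Set G) ⊓ X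

omit H in
lemma mem_Zs {X' : Subgroup G} {z : G} : z ∈ Zs X' ↔ IsC X' z := by
  constructor
  · intro h
    exact ⟨h.2, Subgroup.mem_centralizer_iff.mp h.1⟩
  · intro h
    exact ⟨Subgroup.mem_centralizer_iff.mpr h.2, h.1⟩

omit H in
lemma conj_mem_of_normalizer {X' : Subgroup G} {n z : G} (hn : n ∈ Subgroup.normalizer (X' : Set G)) (hz : z ∈ X') : n * z * n⁻¹ ∈ X' :=
  (Subgroup.mem_normalizer_iff.mp hn z).mp hz

omit H in
lemma IsC.conj {X' : Subgroup G} {n z : G} (hn : n ∈ Subgroup.normalizer (X' : Set G)) (hz : IsC X' z) : IsC X' (n * z * n⁻¹) := by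
  refine ⟨conj_mem_of_normalizer hn hz.1, fun y hy => ?_⟩
  have h1 := hz.2 _ (conj_mem_of_normalizer (Subgroup.inv_mem _ hn) hy)
  have h2 : n⁻¹ * y * n * z = z * (n⁻¹ * y * n) := by simpa using h1
  calc y * (n * z * n⁻¹) = n * (n⁻¹ * y * n * z) * n⁻¹ := by group
    _ = n * (z * (n⁻¹ * y * n)) * n⁻¹ := by rw [h2]
    _ = n * z * n⁻¹ * y := by group

lemma conj_central_odd {b : G} (hb : b ∈ Subgroup.normalizer ((X : Subgroup G) : Set G)) (hodd : Odd (orderOf b))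
    {z : G} (hz : IsC X z) : b * z * b⁻¹ = z := by
  classical
  have hbN : b ∈ Subgroup.normalizer ((Zs (X : Subgroup G) : Subgroup G) : Set G) := by
    apply Subgroup.mem_normalizer_fintype
    intro s hs
    exact mem_Zs.mpr (IsC.conj hb (mem_Zs.mp hs))
  let ν : MulAut ↥(Zs (X : Subgroup G)) := (Zs (X : Subgroup G)).normalizerMonoidHom ⟨b, hbN⟩
  have hν : ∀ s : ↥(Zs (X : Subgroup G)), ((ν s : ↥(Zs (X : Subgroup G))) : G) = b * s * b⁻¹ := fun s => rfl
  have hνm : ν ^ orderOf b = 1 := by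
    rw [← map_pow]
    have : (⟨b, hbN⟩ : Subgroup.normalizer ((Zs (X : Subgroup G) : Subgroup G) : Set G)) ^ orderOf b = 1 :=
      Subtype.ext (by simp [pow_orderOf_eq_one])
    rw [this, map_one]
  -- the special involutions
  have hcommε : b * H.ε * b⁻¹ = H.ε := by
    have h1 : b * H.ε * b⁻¹ ∈ ⁅(X : Subgroup G), (X : Subgroup G)⁆ := by
      have h2 : (⁅(X : Subgroup G), (X : Subgroup G)⁆).map (MulAut.conj b).toMonoidHom = ⁅(X : Subgroup G), (X : Subgroup G)⁆ := by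
        have h0 : (X : Subgroup G).map (MulAut.conj b).toMonoidHom = X := Subgroup.mem_normalizer_iff_map_conj_eq.mp hb
        rw [Subgroup.map_commutator, h0]
      rw [← h2]
      exact ⟨_, eps_mem_comm H, rfl⟩
    have h3 : b * H.ε * b⁻¹ * (b * H.ε * b⁻¹) = 1 := by
      calc b * H.ε * b⁻¹ * (b * H.ε * b⁻¹) = b * (H.ε * H.ε) * b⁻¹ := by group
        _ = 1 := by rw [H.hε2]; group
    rcases H.hcomm _ h1 h3 with h4 | h4
    · exfalso
      apply H.hε1
      have : b * H.ε = b := by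
        calc b * H.ε = (b * H.ε * b⁻¹) * b := by group
          _ = b := by rw [h4, one_mul]
      simpa using this
    · exact h4
  have hcommδ : b * H.δ * b⁻¹ = H.δ := by
    have h3 : b * H.δ * b⁻¹ * (b * H.δ * b⁻¹) = 1 := by
      calc b * H.δ * b⁻¹ * (b * H.δ * b⁻¹) = b * (H.δ * H.δ) * b⁻¹ := by group
        _ = 1 := by rw [H.hδ2]; group
    rcases H.hinv _ (IsC.conj hb H.hδ) h3 with h4 | h4 | h4 | h4
    · exfalso
      apply H.hδ1
      have : b * H.δ = b := by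
        calc b * H.δ = (b * H.δ * b⁻¹) * b := by group
          _ = b := by rw [h4, one_mul]
      simpa using this
    · exact h4
    · exfalso
      apply H.hδε
      have : b * H.δ * b⁻¹ = b * H.ε * b⁻¹ := by rw [h4, hcommε]
      simpa using this
    · have hδ' : H.δ ∈ Zs (X : Subgroup G) := mem_Zs.mpr H.hδ
      have h5 : ν (ν ⟨H.δ, hδ'⟩) = ⟨H.δ, hδ'⟩ := by
        apply Subtype.ext
        rw [hν, hν]
        change b * (b * H.δ * b⁻¹) * b⁻¹ = H.δ
        rw [h4]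
        calc b * (H.δ * H.ε) * b⁻¹ = (b * H.δ * b⁻¹) * (b * H.ε * b⁻¹) := by group
          _ = H.δ * H.ε * H.ε := by rw [h4, hcommε]
          _ = H.δ := by rw [mul_assoc, H.hε2, mul_one]
      have h6 := Action.fix_of_sq ν hodd hνm h5
      exact congrArg Subtype.val h6
  have hcz : ∀ a b : ↥(Zs (X : Subgroup G)), a * b = b * a := by
    intro a b
    apply Subtype.ext
    exact ((mem_Zs.mp a.2).2 _ (mem_Zs.mp b.2).1).symm
  have h2 : ∀ a : ↥(Zs (X : Subgroup G)), ∃ e : ℕ, a ^ (2 ^ e) = 1 := by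
    intro a
    obtain ⟨e, he⟩ := X.isPGroup' ⟨a, (mem_Zs.mp a.2).1⟩
    exact ⟨e, Subtype.ext (by simpa using congrArg Subtype.val he)⟩
  have hfix : ∀ s : ↥(Zs (X : Subgroup G)), s * s = 1 → ν s = s := by
    intro s hs
    apply Subtype.ext
    rw [hν]
    have hs' : (s : G) * s = 1 := congrArg Subtype.val hs
    rcases H.hinv _ (mem_Zs.mp s.2) hs' with h4 | h4 | h4 | h4
    · rw [h4]; group
    · rw [h4]; exact hcommδ
    · rw [h4]; exact hcommε
    · rw [h4]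
      calc b * (H.δ * H.ε) * b⁻¹ = (b * H.δ * b⁻¹) * (b * H.ε * b⁻¹) := by group
        _ = H.δ * H.ε := by rw [hcommδ, hcommε]
  have h7 := Action.fix_of_fix_inv hcz h2 ν hodd hνm hfix ⟨z, mem_Zs.mpr hz⟩
  exact congrArg Subtype.val h7

/-- `N_G(X)` centralizes `Z(X)`. -/
lemma conj_central {n : G} (hn : n ∈ Subgroup.normalizer ((X : Subgroup G) : Set G)) {z : G} (hz : IsC X z) : n * z * n⁻¹ = z := by
  haveI : Fact (Nat.Prime 2) := ⟨Nat.prime_two⟩
  obtain ⟨a, b, rfl, -, ha, hb, ⟨k, hk⟩, hbo⟩ := Cfsg.Agent.Lib.Transfer.Basic.exists_pPart_decomp (p := 2) n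
  have hzp : Subgroup.zpowers (a * b) ≤ Subgroup.normalizer ((X : Subgroup G) : Set G) := by
    rw [Subgroup.zpowers_le]
    exact hn
  have haX : a ∈ (X : Subgroup G) := Cfsg.Agent.Lib.Involutions2.KleinSylow.mem_of_mem_normalizer X (hzp ha) hk
  have hodd : Odd (orderOf b) := by
    rw [← Nat.not_even_iff_odd, even_iff_two_dvd]
    intro h
    exact absurd (Nat.Coprime.eq_one_of_dvd hbo.symm h) (by norm_num)
  have h1 := conj_central_odd H (hzp hb) hodd hz
  have h3 : a * z = z * a := (IsC.conj (hzp hb) hz |>.2 a haX |>.trans (by rw [h1]) |>.trans rfl) |> fun h => by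
    simpa [h1] using h
  calc a * b * z * (a * b)⁻¹ = a * (b * z * b⁻¹) * a⁻¹ := by group
    _ = a * z * a⁻¹ := by rw [h1]
    _ = z * a * a⁻¹ := by rw [h3]
    _ = z := by group

/-- Step 3: if all squares are central, contradiction. -/
lemma not_all_sq_central : ∃ w₀ ∈ (X : Subgroup G), ¬ IsC X (w₀ * w₀) := by
  by_contra hall
  push_neg at hall
  have hδc : ∀ y : ↥(X : Subgroup G), y * ⟨H.δ, H.hδ.1⟩ = ⟨H.δ, H.hδ.1⟩ * y := fun y => Subtype.ext (H.hδ.2 y y.2)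
  refine Basic.false_of_sq H.hG X (fun n hn z hz hzc => conj_central H hn ⟨hz, hzc⟩) H.χ ⟨H.δ, H.hδ.1⟩ hδc (Subtype.ext H.hδ2) H.hχδ H.hχ ?_
  intro x y g hy
  have h1 : (x : G) * x ∈ (X : Subgroup G) := (X : Subgroup G).mul_mem x.2 x.2
  have hcj : IsConj ((x : G) * x) ((y : G) * y) := by
    rw [isConj_iff]
    refine ⟨g, ?_⟩
    rw [hy]
    group
  have h2 := Basic.central_conj_eq X (fun n hn z hz hzc => conj_central H hn ⟨hz, hzc⟩) h1 (hall x x.2).2 (hall y y.2).2 hcj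
  have h3 : y * y = x * x := Subtype.ext h2
  rw [pow_two, pow_two, ← map_mul, ← map_mul, h3]

omit H in
lemma card_mul_relIndex {S T : Subgroup G} (h : S ≤ T) : Nat.card S * S.relIndex T = Nat.card T := by
  have h1 := (S.subgroupOf T).card_mul_index
  rw [Nat.card_congr (Subgroup.subgroupOfEquivOfLe h).toEquiv] at h1
  exact h1

/-- Step 4: `L` is the unique abelian subgroup of its order in `X`. -/
lemma eq_of_abelian {w₀ : G} (hw₀ : w₀ ∈ (X : Subgroup G)) (hw₀c : ¬ IsC X (w₀ * w₀)) {B : Subgroup G} (hBX : B ≤ (X : Subgroup G))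
    (hBc : ∀ a ∈ B, ∀ b ∈ B, a * b = b * a) (hBcard : Nat.card B = Nat.card H.L) : B = H.L := by
  by_contra hne
  obtain ⟨l, hl, hlB⟩ : ∃ l ∈ H.L, l ∉ B := by
    by_contra h
    push_neg at h
    exact hne (Subgroup.eq_of_le_of_card_ge h hBcard.le).symm
  have hB2 : B.relIndex (X : Subgroup G) = 2 := by
    have h1 := card_mul_relIndex hBX
    have h2 := card_mul_relIndex H.hLX
    rw [H.hLi, ← h1, hBcard] at h2
    exact (Nat.eq_of_mul_eq_mul_left Nat.card_pos h2).symm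
  apply hw₀c
  refine ⟨(X : Subgroup G).mul_mem hw₀ hw₀, fun y hy => ?_⟩
  have hsB : w₀ * w₀ ∈ B := (mul_mem_iff hB2 hw₀ hw₀).mpr Iff.rfl
  by_cases hyB : y ∈ B
  · exact hBc y hyB _ hsB
  · have h1 : y * l ∈ B := (mul_mem_iff hB2 hy (H.hLX hl)).mpr ⟨fun h => absurd h hyB, fun h => absurd h hlB⟩
    have h2 := hBc _ h1 _ hsB
    have h3 := H.hLc l hl _ (sq_mem H hw₀)
    have h4 : y * (w₀ * w₀) * l = (w₀ * w₀) * y * l := by
      calc y * (w₀ * w₀) * l = y * (l * (w₀ * w₀)) := by rw [mul_assoc, ← h3]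
        _ = y * l * (w₀ * w₀) := by group
        _ = w₀ * w₀ * (y * l) := h2
        _ = _ := by group
    exact mul_right_cancel h4

lemma normalizer_of_conj {w₀ : G} (hw₀ : w₀ ∈ (X : Subgroup G)) (hw₀c : ¬ IsC X (w₀ * w₀)) {g : G}
    (hg : ∀ a ∈ H.L, g * a * g⁻¹ ∈ (X : Subgroup G)) : g ∈ Subgroup.normalizer ((H.L : Subgroup G) : Set G) := by
  rw [Subgroup.mem_normalizer_iff_map_conj_eq]
  apply eq_of_abelian H hw₀ hw₀c
  · rintro _ ⟨a, ha, rfl⟩
    exact hg a ha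
  · rintro _ ⟨a, ha, rfl⟩ _ ⟨b, hb, rfl⟩
    change g * a * g⁻¹ * (g * b * g⁻¹) = g * b * g⁻¹ * (g * a * g⁻¹)
    calc g * a * g⁻¹ * (g * b * g⁻¹) = g * (a * b) * g⁻¹ := by group
      _ = g * (b * a) * g⁻¹ := by rw [H.hLc a ha b hb]
      _ = _ := by group
  · exact (Nat.card_congr (Subgroup.equivMapOfInjective H.L _ (MulAut.conj g).injective).toEquiv).symm

/-- The `N_G(L)`-control of conjugacy in `L`. -/
lemma exists_normalizer_conj {w₀ : G} (hw₀ : w₀ ∈ (X : Subgroup G)) (hw₀c : ¬ IsC X (w₀ * w₀)) {b b' g : G}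
    (hb : b ∈ H.L) (hb' : b' ∈ H.L) (hg : g * b * g⁻¹ = b') :
    ∃ n ∈ Subgroup.normalizer ((H.L : Subgroup G) : Set G), n * b * n⁻¹ = b' := by
  classical
  haveI : Fact (Nat.Prime 2) := ⟨Nat.prime_two⟩
  set C := Subgroup.centralizer ({b'} : Set G) with hC
  have hLC : ∀ a ∈ H.L, a ∈ C := by
    intro a ha
    rw [hC, Subgroup.mem_centralizer_singleton_iff]
    exact H.hLc a ha b' hb'
  have hL₂C : ∀ a ∈ H.L, g * a * g⁻¹ ∈ C := by
    intro a ha
    rw [hC, Subgroup.mem_centralizer_singleton_iff, ← hg]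
    calc g * a * g⁻¹ * (g * b * g⁻¹) = g * (a * b) * g⁻¹ := by group
      _ = g * (b * a) * g⁻¹ := by rw [H.hLc a ha b hb]
      _ = _ := by group
  have hL2 : IsPGroup 2 ↥H.L := X.isPGroup'.to_le H.hLX
  have hS₁ : IsPGroup 2 ↥(H.L.subgroupOf C) := hL2.comap_subtype
  have hS₂ : IsPGroup 2 ↥((H.L.map (MulAut.conj g).toMonoidHom).subgroupOf C) := (hL2.map _).comap_subtype
  obtain ⟨P₁, hP₁⟩ := hS₁.exists_le_sylow
  obtain ⟨P₂, hP₂⟩ := hS₂.exists_le_sylow
  obtain ⟨c, hc⟩ := MulAction.exists_smul_eq C P₂ P₁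
  have hT : IsPGroup 2 ↥((P₁ : Subgroup C).map C.subtype) := P₁.isPGroup'.map _
  obtain ⟨Q, hQ⟩ := hT.exists_le_sylow
  obtain ⟨h, hh⟩ := MulAction.exists_smul_eq G X Q
  have hQ' : (Q : Subgroup G) = (X : Subgroup G).map (MulAut.conj h).toMonoidHom := by rw [← hh]; rfl
  have hmemQ : ∀ u, u ∈ (Q : Subgroup G) → h⁻¹ * u * h ∈ (X : Subgroup G) := by
    intro u hu
    rw [hQ'] at hu
    obtain ⟨v, hv, rfl⟩ := hu
    change h⁻¹ * (h * v * h⁻¹) * h ∈ _
    have e : h⁻¹ * (h * v * h⁻¹) * h = v := by group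
    rw [e]
    exact hv
  have h1 : ∀ a ∈ H.L, a ∈ (Q : Subgroup G) := by
    intro a ha
    apply hQ
    exact ⟨⟨a, hLC a ha⟩, hP₁ ha, rfl⟩
  have h2 : ∀ a ∈ H.L, (c : G) * (g * a * g⁻¹) * (c : G)⁻¹ ∈ (Q : Subgroup G) := by
    intro a ha
    apply hQ
    have h3 : (⟨g * a * g⁻¹, hL₂C a ha⟩ : ↥C) ∈ (P₂ : Subgroup C) := hP₂ ⟨a, ha, rfl⟩
    have h4 : c * (⟨g * a * g⁻¹, hL₂C a ha⟩ : ↥C) * c⁻¹ ∈ ((c • P₂ : Sylow 2 C) : Subgroup C) := by
      rw [Sylow.coe_subgroup_smul]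
      exact ⟨_, h3, rfl⟩
    rw [hc] at h4
    exact ⟨_, h4, rfl⟩
  have hn1 : h⁻¹ ∈ Subgroup.normalizer ((H.L : Subgroup G) : Set G) := by
    apply normalizer_of_conj H hw₀ hw₀c
    intro a ha
    simpa using hmemQ a (h1 a ha)
  have hn2 : h⁻¹ * ((c : G) * g) ∈ Subgroup.normalizer ((H.L : Subgroup G) : Set G) := by
    apply normalizer_of_conj H hw₀ hw₀c
    intro a ha
    have := hmemQ _ (h2 a ha)
    have e : h⁻¹ * ((c : G) * g) * a * (h⁻¹ * ((c : G) * g))⁻¹ = h⁻¹ * ((c : G) * (g * a * g⁻¹) * (c : G)⁻¹) * h := by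
      group
    rw [e]
    exact this
  have hn3 : (c : G) * g ∈ Subgroup.normalizer ((H.L : Subgroup G) : Set G) := by
    have := Subgroup.mul_mem _ (Subgroup.inv_mem _ hn1) hn2
    simpa using this
  refine ⟨_, hn3, ?_⟩
  have h5 := (Subgroup.mem_centralizer_singleton_iff.mp c.2)
  calc (c : G) * g * b * ((c : G) * g)⁻¹ = (c : G) * (g * b * g⁻¹) * (c : G)⁻¹ := by group
    _ = (c : G) * b' * (c : G)⁻¹ := by rw [hg]
    _ = b' := by rw [h5]; group

/-- Step 5: a square of an element outside `L` is a square of an element of `L`. -/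
lemma exists_sq_eq {w₀ : G} (hw₀ : w₀ ∈ (X : Subgroup G)) (hw₀c : ¬ IsC X (w₀ * w₀)) :
    ∃ x ∈ (X : Subgroup G), x ∉ H.L ∧ ∃ w ∈ H.L, x * x = w * w := by
  by_contra hno
  push_neg at hno
  have hcross : ∀ (x y g : G), x ∈ H.L → y ∈ (X : Subgroup G) → y ∉ H.L → y = g * x * g⁻¹ → False := by
    intro x y g hx hy hyL hyx
    have h1 : g * (x * x) * g⁻¹ = y * y := by rw [hyx]; group
    obtain ⟨n, hn, hnx⟩ := exists_normalizer_conj H hw₀ hw₀c (H.L.mul_mem hx hx) (sq_mem H hy) h1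
    have hw : n * x * n⁻¹ ∈ H.L := (Subgroup.mem_normalizer_iff.mp hn x).mp hx
    apply hno y hy hyL _ hw
    rw [← hnx]
    group
  obtain ⟨s, hs, hsL⟩ := exists_not_mem H
  have h1 := Basic.hom_trivial_of_stable H.hG X (sgn (X : Subgroup G) H.L H.hLi) (fun x y g hy => by
    by_cases hxL : (x : G) ∈ H.L <;> by_cases hyL : (y : G) ∈ H.L
    · rw [(sgn_apply H.hLi x).mpr hxL, (sgn_apply H.hLi y).mpr hyL]
    · exact (hcross x y g hxL y.2 hyL hy).elim
    · refine (hcross y x g⁻¹ hyL x.2 hxL ?_).elim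
      rw [hy]; group
    · rw [sgn_apply' H.hLi x hxL, sgn_apply' H.hLi y hyL]) ⟨s, hs⟩
  exact hsL ((sgn_apply H.hLi _).mp h1)

lemma isC_one : IsC X (1 : G) := ⟨one_mem _, fun y _ => by simp⟩

/-- Step 6: an involution outside `L`. -/
lemma exists_sigma {w₀ : G} (hw₀ : w₀ ∈ (X : Subgroup G)) (hw₀c : ¬ IsC X (w₀ * w₀)) :
    ∃ σ ∈ (X : Subgroup G), σ ∉ H.L ∧ σ * σ = 1 := by
  by_cases hdL : H.d ∈ H.L
  · obtain ⟨x, hx, hxL, w, hw, hxw⟩ := exists_sq_eq H hw₀ hw₀c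
    have hinv : ∀ z, IsC X z → z * z = x * x → ∃ σ ∈ (X : Subgroup G), σ ∉ H.L ∧ σ * σ = 1 := by
      intro z hz hzz
      refine ⟨x * z⁻¹, (X : Subgroup G).mul_mem hx ((X : Subgroup G).inv_mem hz.1), ?_, ?_⟩
      · intro h
        apply hxL
        have := H.L.mul_mem h (central_mem H hz)
        simpa using this
      · have h1 := hz.2 x hx
        have h2 : z⁻¹ * x = x * z⁻¹ := by
          calc z⁻¹ * x = z⁻¹ * (x * z) * z⁻¹ := by group
            _ = z⁻¹ * (z * x) * z⁻¹ := by rw [h1]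
            _ = x * z⁻¹ := by group
        calc x * z⁻¹ * (x * z⁻¹) = x * (z⁻¹ * x) * z⁻¹ := by group
          _ = x * (x * z⁻¹) * z⁻¹ := by rw [h2]
          _ = (x * x) * (z⁻¹ * z⁻¹) := by group
          _ = (z * z) * (z⁻¹ * z⁻¹) := by rw [hzz]
          _ = 1 := by group
    by_cases hwc : IsC X w
    · exact hinv w hwc hxw.symm
    · have hwwc : IsC X (w * w) := by rw [← hxw]; exact H.hsq x hx hxL
      have hddc : IsC X (H.d * H.d) := by rw [H.hd2]; exact isC_one H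
      have hz := H.hFc w hw H.d hdL hwwc hddc hwc H.hdc
      refine hinv _ hz ?_
      have h1 := H.hLc w hw H.d hdL
      rw [hxw]
      calc w * H.d * (w * H.d) = w * (H.d * w) * H.d := by group
        _ = w * (w * H.d) * H.d := by rw [h1]
        _ = w * w * (H.d * H.d) := by group
        _ = w * w := by rw [H.hd2, mul_one]
  · exact ⟨H.d, H.hd, hdL, H.hd2⟩

/-- `4 ∤ |W|`. -/
lemma not_four_dvd : ¬ 4 ∣ Nat.card H.L.normalizerMonoidHom.range := by
  intro h4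
  set N := Subgroup.normalizer ((H.L : Subgroup G) : Set G) with hN
  set ρ := H.L.normalizerMonoidHom with hρ
  have h1 : Nat.card ρ.ker * Nat.card ρ.range = Nat.card N := by
    rw [← Subgroup.index_ker]
    exact ρ.ker.card_mul_index
  have hLN : H.L ≤ N := Subgroup.le_normalizer
  have h2 : Nat.card H.L ∣ Nat.card ρ.ker := by
    have hle : H.L.subgroupOf N ≤ ρ.ker := by
      rw [hρ, Subgroup.normalizerMonoidHom_ker]
      intro x hx
      rw [Subgroup.mem_subgroupOf] at hx ⊢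
      exact Subgroup.mem_centralizer_iff.mpr (fun y hy => H.hLc y hy x hx)
    have := Subgroup.card_dvd_of_le hle
    rwa [Nat.card_congr (Subgroup.subgroupOfEquivOfLe hLN).toEquiv] at this
  have h3 : Nat.card N ∣ Nat.card G := Subgroup.card_subgroup_dvd_card N
  have h5 : Nat.card H.L * 2 = Nat.card (X : Subgroup G) := by
    have := card_mul_relIndex H.hLX
    rwa [H.hLi] at this
  have h6 := (X : Subgroup G).card_mul_index
  have h7 : Nat.card H.L * 4 ∣ Nat.card H.L * 2 * (X : Subgroup G).index := by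
    rw [h5, h6]
    exact (mul_dvd_mul h2 h4).trans (by rw [h1]; exact h3)
  have h8 : 2 ∣ (X : Subgroup G).index := by
    rw [mul_assoc] at h7
    have := Nat.dvd_of_mul_dvd_mul_left Nat.card_pos h7
    omega
  exact X.not_dvd_index h8

/-- **The group theory.** -/
theorem false_of_hyp : False := by
  classical
  haveI : Fact (Nat.Prime 2) := ⟨Nat.prime_two⟩
  obtain ⟨w₀, hw₀, hw₀c⟩ := not_all_sq_central H
  obtain ⟨σ, hσ, hσL, hσ2⟩ := exists_sigma H hw₀ hw₀c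
  have hσi : σ⁻¹ = σ := inv_eq_of_mul_eq_one_left hσ2
  have hσN : σ ∈ Subgroup.normalizer ((H.L : Subgroup G) : Set G) := by
    apply Subgroup.mem_normalizer_fintype
    intro a ha
    have := (conj_mem_iff H.hLi (h := σ⁻¹) (H.hLX ha) ((X : Subgroup G).inv_mem hσ)).mpr ha
    simpa using this
  have hNx : ∀ n ∈ Subgroup.normalizer ((X : Subgroup G) : Set G), ∀ z ∈ (X : Subgroup G),
      (∀ y ∈ (X : Subgroup G), y * z = z * y) → n * z * n⁻¹ = z := fun n hn z hz hzc => conj_central H hn ⟨hz, hzc⟩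
  set ρ := H.L.normalizerMonoidHom with hρ
  have hρa : ∀ (n : Subgroup.normalizer ((H.L : Subgroup G) : Set G)) (y : ↥H.L), ((ρ n y : ↥H.L) : G) = n * y * (n : G)⁻¹ := fun n y => rfl
  set α := ρ ⟨σ, hσN⟩ with hα
  have hαa : ∀ y : ↥H.L, ((α y : ↥H.L) : G) = σ * y * σ := fun y => by rw [hα, hρa, hσi]
  have hα2 : α * α = 1 := by
    rw [hα, ← map_mul]
    have : (⟨σ, hσN⟩ : Subgroup.normalizer ((H.L : Subgroup G) : Set G)) * ⟨σ, hσN⟩ = 1 := Subtype.ext hσ2
    rw [this, map_one]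
  have hcL : ∀ a b : ↥H.L, a * b = b * a := fun a b => Subtype.ext (H.hLc a a.2 b b.2)
  have h2L : ∀ a : ↥H.L, ∃ e : ℕ, a ^ (2 ^ e) = 1 := (X.isPGroup'.to_le H.hLX : IsPGroup 2 ↥H.L)
  have hαc : ∀ y : ↥H.L, IsC X (y : G) → α y = y := by
    intro y hy
    apply Subtype.ext
    rw [hαa, hy.2 σ hσ, mul_assoc, hσ2, mul_one]
  have hcα : ∀ y : ↥H.L, α y = y → IsC X (y : G) := by
    intro y hy
    have h1 : σ * y * σ = y := by rw [← hαa, hy]
    apply central_of_comm H hσ hσL y.2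
    calc σ * y = σ * y * (σ * σ) := by rw [hσ2, mul_one]
      _ = (σ * y * σ) * σ := by group
      _ = y * σ := by rw [h1]
  have hα1 : α ≠ 1 := by
    intro h1
    have hall : ∀ y : ↥H.L, IsC X (y : G) := fun y => hcα y (by rw [h1]; rfl)
    apply H.hdc
    by_cases hdL : H.d ∈ H.L
    · exact hall ⟨_, hdL⟩
    · refine ⟨H.hd, fun y hy => ?_⟩
      by_cases hyL : y ∈ H.L
      · exact ((hall ⟨y, hyL⟩).2 _ H.hd).symm
      · have h3 := (hall ⟨_, mul_mem_of_not H hy H.hd hyL hdL⟩).2 _ H.hd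
        have h4 : H.d * (y * H.d) = y * H.d * H.d := h3
        have h5 : H.d * y * H.d = y * H.d * H.d := by rw [mul_assoc, h4]
        exact (mul_right_cancel h5).symm
  -- the special involutions of `L`
  set δ' : ↥H.L := ⟨H.δ, central_mem H H.hδ⟩ with hδ'
  set ε' : ↥H.L := ⟨H.ε, central_mem H H.hε⟩ with hε'
  have hδ2' : δ' * δ' = 1 := Subtype.ext H.hδ2
  have hε2' : ε' * ε' = 1 := Subtype.ext H.hε2
  have hδ1' : δ' ≠ 1 := fun h => H.hδ1 (congrArg Subtype.val h)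
  have hε1' : ε' ≠ 1 := fun h => H.hε1 (congrArg Subtype.val h)
  have hδε' : δ' ≠ ε' := fun h => H.hδε (congrArg Subtype.val h)
  have hαδ : α δ' = δ' := hαc δ' H.hδ
  have hαε : α ε' = ε' := hαc ε' H.hε
  have hEr : ∀ y : ↥H.L, (α y * y⁻¹) * (α y * y⁻¹) = 1 → α y * y⁻¹ = 1 ∨ α y * y⁻¹ = ε' := by
    intro y hy
    have h1 : ((α y * y⁻¹ : ↥H.L) : G) = σ * y * σ⁻¹ * (y : G)⁻¹ := by
      change ((α y : ↥H.L) : G) * (y : G)⁻¹ = _
      rw [hαa, hσi]
    have h3 : ((α y * y⁻¹ : ↥H.L) : G) ∈ ⁅(X : Subgroup G), (X : Subgroup G)⁆ := by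
      rw [h1]
      exact Subgroup.commutator_mem_commutator hσ (H.hLX y.2)
    rcases H.hcomm _ h3 (congrArg Subtype.val hy) with h4 | h4
    · exact Or.inl (Subtype.ext h4)
    · exact Or.inr (Subtype.ext h4)
  have hEs : ∀ s : ↥H.L, α s = s → s * s = 1 → s = 1 ∨ s = δ' ∨ s = ε' ∨ s = δ' * ε' := by
    intro s hs hs2
    rcases H.hinv _ (hcα s hs) (congrArg Subtype.val hs2) with h4 | h4 | h4 | h4
    · exact Or.inl (Subtype.ext h4)
    · exact Or.inr (Or.inl (Subtype.ext h4))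
    · exact Or.inr (Or.inr (Or.inl (Subtype.ext h4)))
    · exact Or.inr (Or.inr (Or.inr (Subtype.ext h4)))
  have hF : ∀ a b : ↥H.L, a * a = 1 → b * b = 1 → α a ≠ a → α b ≠ b → α (a * b) = a * b := by
    intro a b ha hb haα hbα
    have h1 : (a : G) * a = 1 := congrArg Subtype.val ha
    have h3 : (b : G) * b = 1 := congrArg Subtype.val hb
    exact hαc (a * b) (H.hFc a a.2 b b.2 (by rw [h1]; exact isC_one H) (by rw [h3]; exact isC_one H)
      (fun h => haα (hαc a h)) (fun h => hbα (hαc b h)))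
  have hW := not_four_dvd H
  have hαW : α ∈ ρ.range := ⟨_, rfl⟩
  -- Claim 2 : `α` is central in `W`.
  have hcommρ : ∀ n, ρ n * α = α * ρ n := by
    intro n
    by_contra hne
    set θ := ρ n with hθ
    have hθW : θ ∈ ρ.range := ⟨n, rfl⟩
    have hne' : θ * α * θ⁻¹ ≠ α := by
      intro h
      apply hne
      calc θ * α = (θ * α * θ⁻¹) * θ := by group
        _ = α * θ := by rw [h]
    obtain ⟨hodd, hfix⟩ := Action.conj_fixed hcL h2L α hα2 hα1 hEr hαε hε2' hε1' ρ.range hW hαW hθW hne'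
    set t := α * (θ * α * θ⁻¹) with ht
    have hαi : α⁻¹ = α := inv_eq_of_mul_eq_one_left hα2
    have hαt : α * t * α⁻¹ = t⁻¹ := by
      rw [hαi, ht, mul_inv_rev, hαi]
      have e : (θ * α * θ⁻¹)⁻¹ = θ * α * θ⁻¹ := by
        rw [mul_inv_rev, mul_inv_rev, hαi, inv_inv, mul_assoc]
      rw [e]
      calc α * (α * (θ * α * θ⁻¹)) * α = (α * α) * (θ * α * θ⁻¹) * α := by group
        _ = θ * α * θ⁻¹ * α := by rw [hα2, one_mul]
    obtain ⟨y₀, hy₀, hty₀⟩ := Action.exists_fixed hcL α hα2 hF hαε hαδ hε2' hδ2' hε1' hδ1' hδε' t hodd (pow_orderOf_eq_one t) hαt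
    obtain ⟨D, Nn, ν, z, hNα, hνz, hνNz, hαz, hmin⟩ := Action.exists_char hcL h2L α t hodd (pow_orderOf_eq_one t) hαt hfix hy₀ hty₀
    obtain ⟨Φ, hΦ1, hΦ2⟩ := Basic.ext_hom H.hLi hσ hσL H.hLX hσ2 Nn (fun y hy hy' => by
      have h1 : α ⟨y, hy⟩ = ⟨σ * y * σ, hy'⟩ := Subtype.ext (hαa _)
      rw [← h1]
      exact hNα _)
    have hzc : IsC X ((z : ↥H.L) : G) := hcα _ hαz
    refine Basic.false_of_central H.hG X hNx (ν.comp Φ) ⟨_, hzc.1⟩ (fun y => Subtype.ext (hzc.2 y y.2)) ?_ ?_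
    · rw [MonoidHom.comp_apply, hΦ1 _ _ (z : ↥H.L).2]
      exact hνNz
    · intro x hx
      have h1 := hmin _ hx
      have h3 : orderOf (⟨_, hzc.1⟩ : ↥(X : Subgroup G)) = orderOf z := by
        rw [Subgroup.orderOf_mk, Subgroup.orderOf_coe, Subgroup.orderOf_coe]
      rw [h3]
      exact h1.trans (Nat.le_of_dvd (orderOf_pos x) (orderOf_map_dvd Φ x))
  -- Claim 1
  have hC1 : ∀ n, ρ n = 1 ∨ ρ n = α := fun n =>
    Action.eq_one_or_of_comm hcL h2L α hα2 hα1 hEr hEs hαε hαδ hε2' hδ2' hε1' hδ1' hδε' ρ.range hW hαW ⟨n, rfl⟩ (hcommρ n)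
  refine Basic.false_of_sq H.hG X hNx H.χ ⟨H.δ, H.hδ.1⟩ (fun y => Subtype.ext (H.hδ.2 y y.2)) (Subtype.ext H.hδ2) H.hχδ H.hχ ?_
  intro x y g hy
  have hxx : (x : G) * x ∈ H.L := sq_mem H x.2
  have hyy : (y : G) * y ∈ H.L := sq_mem H y.2
  have h1 : g * ((x : G) * x) * g⁻¹ = (y : G) * y := by rw [hy]; group
  obtain ⟨n, hn, hnx⟩ := exists_normalizer_conj H hw₀ hw₀c hxx hyy h1
  have h3 : ((ρ ⟨n, hn⟩ ⟨_, hxx⟩ : ↥H.L) : G) = (y : G) * y := by rw [hρa]; exact hnx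
  rw [pow_two, pow_two, ← map_mul, ← map_mul]
  rcases hC1 ⟨n, hn⟩ with h4 | h4
  · rw [h4] at h3
    have h5 : y * y = x * x := Subtype.ext h3.symm
    rw [h5]
  · rw [h4, hαa] at h3
    have h5 : y * y = ⟨σ, hσ⟩ * (x * x) * (⟨σ, hσ⟩ : ↥(X : Subgroup G))⁻¹ := by
      apply Subtype.ext
      change (y : G) * y = σ * ((x : G) * x) * σ⁻¹
      rw [hσi]
      exact h3.symm
    rw [h5, map_mul, map_mul, map_inv, mul_inv_cancel_comm]

end Cfsg.Agent.Lib.GL3Syl.Main
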