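import Mathlib
import Cfsg.Agent.Lib.GL3Syl.Main

/-!
# Two by two matrices and the structure of a 2-group in `F × M₂(F)`
-/

set_option autoImplicit false
set_option linter.style.haveILetI false
set_option linter.unusedSectionVars false
set_option linter.unusedVariables false
set_option linter.style.longLine false
set_option linter.style.multiGoal false

namespace Cfsg.Agent.Lib.GL3Syl.Linear

variable {F : Type*} [Field F]

/-- Two by two matrices. -/
abbrev M₂ (F : Type*) [Field F] := Matrix (Fin 2) (Fin 2) F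

/-- Scalar matrices. -/
def Sc (m : M₂ F) : Prop := ∃ a : F, m = a • (1 : M₂ F)

lemma entries_of_comm {m c : M₂ F} (h : m * c = c * m) :
    m 0 1 * c 1 0 = c 0 1 * m 1 0 ∧ m 0 0 * c 0 1 + m 0 1 * c 1 1 = c 0 0 * m 0 1 + c 0 1 * m 1 1 ∧
      m 1 0 * c 0 0 + m 1 1 * c 1 0 = c 1 0 * m 0 0 + c 1 1 * m 1 0 := by
  have h00 := congrFun (congrFun h 0) 0
  have h01 := congrFun (congrFun h 0) 1
  have h10 := congrFun (congrFun h 1) 0
  simp only [Matrix.mul_apply, Fin.sum_univ_two] at h00 h01 h10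
  refine ⟨?_, h01, h10⟩
  linear_combination h00

lemma ext₂ {m m' : M₂ F} (h00 : m 0 0 = m' 0 0) (h01 : m 0 1 = m' 0 1) (h10 : m 1 0 = m' 1 0) (h11 : m 1 1 = m' 1 1) : m = m' := by
  ext i j
  fin_cases i <;> fin_cases j
  · exact h00
  · exact h01
  · exact h10
  · exact h11

lemma sc_of_entries {c : M₂ F} (h01 : c 0 1 = 0) (h10 : c 1 0 = 0) (h : c 0 0 = c 1 1) : Sc c :=
  ⟨c 0 0, ext₂ (by simp) (by simp [h01]) (by simp [h10]) (by simp [h])⟩

/-- **M3**: the centralizer of a non-scalar matrix is `F[c]`. -/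
lemma exists_poly {m c : M₂ F} (hc : ¬ Sc c) (h : m * c = c * m) : ∃ a b : F, m = a • (1 : M₂ F) + b • c := by
  obtain ⟨h1, h2, h3⟩ := entries_of_comm h
  set p := c 0 0
  set q := c 0 1
  set r := c 1 0
  set s := c 1 1
  set t := m 0 0
  set u := m 0 1
  set v := m 1 0
  set w := m 1 1
  have key : ∀ b a : F, a + b * p = t → b * q = u → b * r = v → a + b * s = w → m = a • (1 : M₂ F) + b • c := by
    intro b a h00 h01 h10 h11
    apply ext₂ <;> simp
    · exact h00.symm
    · exact h01.symm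
    · exact h10.symm
    · exact h11.symm
  by_cases hq : q = 0
  · by_cases hr : r = 0
    · have hps : p - s ≠ 0 := by
        intro hps
        exact hc (sc_of_entries hq hr (sub_eq_zero.mp hps))
      have hb : (t - w) / (p - s) * (p - s) = t - w := div_mul_cancel₀ _ hps
      refine ⟨t - (t - w) / (p - s) * p, (t - w) / (p - s), key _ _ ?_ ?_ ?_ ?_⟩
      · ring
      · rw [hq, mul_zero]
        have : u * (p - s) = 0 := by rw [hq] at h2; linear_combination -h2
        exact ((mul_eq_zero.mp this).resolve_right hps).symm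
      · rw [hr, mul_zero]
        have : v * (p - s) = 0 := by rw [hr] at h3; linear_combination h3
        exact ((mul_eq_zero.mp this).resolve_right hps).symm
      · linear_combination -hb
    · have hb : v / r * r = v := div_mul_cancel₀ _ hr
      refine ⟨t - v / r * p, v / r, key _ _ ?_ ?_ ?_ ?_⟩
      · ring
      · rw [hq, mul_zero]
        have : u * r = 0 := by rw [hq] at h1; linear_combination h1
        exact ((mul_eq_zero.mp this).resolve_right hr).symm
      · exact hb
      · have e : v * (p - s) = r * (t - w) := by linear_combination h3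
        have : r * (t - v / r * p + v / r * s - w) = 0 := by
          field_simp
          linear_combination -e
        have h4 := (mul_eq_zero.mp this).resolve_left hr
        linear_combination h4
  · have hb : u / q * q = u := div_mul_cancel₀ _ hq
    refine ⟨t - u / q * p, u / q, key _ _ ?_ ?_ ?_ ?_⟩
    · ring
    · exact hb
    · have : q * (u / q * r - v) = 0 := by
        field_simp
        linear_combination h1
      have h4 := (mul_eq_zero.mp this).resolve_left hq
      linear_combination h4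
    · have e : q * (t - w) = u * (p - s) := by linear_combination h2
      have : q * (t - u / q * p + u / q * s - w) = 0 := by
        field_simp
        linear_combination e
      have h4 := (mul_eq_zero.mp this).resolve_left hq
      linear_combination h4

lemma mul_poly (c : M₂ F) (x y x' y' : F) : (x • (1 : M₂ F) + y • c) * (x' • 1 + y' • c) = (x * x') • 1 + (x * y' + y * x') • c + (y * y') • (c * c) := by
  simp only [add_mul, mul_add, smul_mul_assoc, mul_smul_comm, one_mul, mul_one]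
  module

/-- Elements of `F[c]` commute. -/
lemma comm_of_comm {m m' c : M₂ F} (hc : ¬ Sc c) (h : m * c = c * m) (h' : m' * c = c * m') : m * m' = m' * m := by
  obtain ⟨a, b, rfl⟩ := exists_poly hc h
  obtain ⟨a', b', rfl⟩ := exists_poly hc h'
  have e : a * b' + b * a' = a' * b + b' * a := by ring
  rw [mul_poly, mul_poly, e, mul_comm a a', mul_comm b b']

/-- `1` and a non-scalar `c` are independent. -/
lemma eq_zero_of_sc {c : M₂ F} (hc : ¬ Sc c) {b : F} (h : Sc (b • c)) : b = 0 := by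
  by_contra hb
  obtain ⟨a, ha⟩ := h
  apply hc
  refine ⟨b⁻¹ * a, ?_⟩
  have : c = b⁻¹ • (b • c) := by rw [smul_smul, inv_mul_cancel₀ hb, one_smul]
  rw [this, ha, smul_smul]

lemma Sc.add {m m' : M₂ F} (h : Sc m) (h' : Sc m') : Sc (m + m') := by
  obtain ⟨a, rfl⟩ := h
  obtain ⟨a', rfl⟩ := h'
  exact ⟨a + a', by rw [add_smul]⟩

lemma Sc.smul {m : M₂ F} (h : Sc m) (b : F) : Sc (b • m) := by
  obtain ⟨a, rfl⟩ := h
  exact ⟨b * a, by rw [smul_smul]⟩

lemma Sc.neg {m : M₂ F} (h : Sc m) : Sc (-m) := by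
  obtain ⟨a, rfl⟩ := h
  exact ⟨-a, by simp⟩

lemma Sc.mul {m m' : M₂ F} (h : Sc m) (h' : Sc m') : Sc (m * m') := by
  obtain ⟨a, rfl⟩ := h
  obtain ⟨a', rfl⟩ := h'
  exact ⟨a' * a, by simp [smul_smul]⟩

lemma sc_one : Sc (1 : M₂ F) := ⟨1, by simp⟩

lemma sc_smul_one (a : F) : Sc (a • (1 : M₂ F)) := ⟨a, rfl⟩

lemma Sc.comm {m : M₂ F} (h : Sc m) (y : M₂ F) : y * m = m * y := by
  obtain ⟨a, rfl⟩ := h
  simp

/-- A matrix commuting with `c` and with `y` anticommuting with `c` is scalar. -/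
lemma sc_of_comm_anti (h2 : (2 : F) ≠ 0) {m c y i : M₂ F} (hc : ¬ Sc c) (h : m * c = c * m) (hy : m * y = y * m)
    (hyc : y * c = -(c * y)) (hi : c * y * i = 1) : Sc m := by
  obtain ⟨a, b, rfl⟩ := exists_poly hc h
  have h3 : b • (c * y) + b • (c * y) = 0 := by
    simp only [add_mul, mul_add, smul_mul_assoc, mul_smul_comm, one_mul, mul_one, hyc, smul_neg] at hy
    have h4 := add_left_cancel hy
    nth_rw 1 [h4]
    exact neg_add_cancel _
  have h5 : (2 * b) • (c * y) = 0 := by
    rw [two_mul, add_smul]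
    exact h3
  have h6 : (2 * b) • (1 : M₂ F) = 0 := by
    calc (2 * b) • (1 : M₂ F) = (2 * b) • (c * y * i) := by rw [hi]
      _ = ((2 * b) • (c * y)) * i := by rw [smul_mul_assoc]
      _ = 0 := by rw [h5, zero_mul]
  have h7 : b = 0 := by
    have h8 := congrFun (congrFun h6 0) 0
    simp only [Matrix.smul_apply, Matrix.one_apply_eq, smul_eq_mul, mul_one, Matrix.zero_apply] at h8
    exact (mul_eq_zero.mp h8).resolve_left h2
  exact ⟨a, by rw [h7]; simp⟩

/-- Scalar square-roots of `1`. -/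
lemma sc_inv_cases {m : M₂ F} (hm : Sc m) (h : m * m = 1) : m = 1 ∨ m = -1 := by
  obtain ⟨a, rfl⟩ := hm
  have h1 : a * a = 1 := by
    have h8 := congrFun (congrFun h 0) 0
    simpa [Matrix.mul_apply, Fin.sum_univ_two] using h8
  rcases mul_self_eq_one_iff.mp h1 with rfl | rfl
  · left; simp
  · right; simp

/-- Commuting involutions. -/
lemma inv_comm_cases (h2 : (2 : F) ≠ 0) {z c : M₂ F} (hc : ¬ Sc c) (hc2 : c * c = 1) (hz : z * z = 1) (hzc : z * c = c * z) :
    z = 1 ∨ z = -1 ∨ z = c ∨ z = -c := by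
  obtain ⟨a, b, rfl⟩ := exists_poly hc hzc
  rw [mul_poly, hc2] at hz
  have e : a * b + b * a = 2 * a * b := by ring
  rw [e] at hz
  have h1 : (a * a + b * b) • (1 : M₂ F) + (2 * a * b) • c = 1 := by
    linear_combination (norm := module) hz
  have h3 : Sc ((2 * a * b) • c) := by
    refine ⟨1 - (a * a + b * b), ?_⟩
    linear_combination (norm := module) hz
  have h4 := eq_zero_of_sc hc h3
  have h5 : a * b = 0 := by
    have : 2 * (a * b) = 0 := by rw [← mul_assoc]; exact h4
    exact (mul_eq_zero.mp this).resolve_left h2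
  rw [h4, zero_smul, add_zero] at h1
  have h6 : a * a + b * b = 1 := by
    have h8 := congrFun (congrFun h1 0) 0
    simpa using h8
  rcases mul_eq_zero.mp h5 with rfl | rfl
  · have h7 : b * b = 1 := by simpa using h6
    rcases mul_self_eq_one_iff.mp h7 with rfl | rfl
    · right; right; left; simp
    · right; right; right; simp
  · have h7 : a * a = 1 := by simpa using h6
    rcases mul_self_eq_one_iff.mp h7 with rfl | rfl
    · left; simp
    · right; left; simp

/-- The multiplier of a scalar commutator. -/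
lemma multiplier_cases {y c i j : M₂ F} {μ : F} (h : y * c = μ • (c * y)) (hi : y * i = 1) (hj : c * j = 1) : μ = 1 ∨ μ = -1 := by
  have h1 : y.det ≠ 0 := by
    intro h0
    have := congrArg Matrix.det hi
    rw [Matrix.det_mul, h0, zero_mul, Matrix.det_one] at this
    exact zero_ne_one this
  have h3 : c.det ≠ 0 := by
    intro h0
    have := congrArg Matrix.det hj
    rw [Matrix.det_mul, h0, zero_mul, Matrix.det_one] at this
    exact zero_ne_one this
  have h4 := congrArg Matrix.det h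
  rw [Matrix.det_mul, Matrix.det_smul, Matrix.det_mul, Fintype.card_fin] at h4
  have h5 : (μ ^ 2 - 1) * (y.det * c.det) = 0 := by linear_combination -h4 
  have h6 : μ ^ 2 - 1 = 0 := (mul_eq_zero.mp h5).resolve_right (mul_ne_zero h1 h3)
  have h7 : μ * μ = 1 := by linear_combination h6
  exact mul_self_eq_one_iff.mp h7

/-- An involution of determinant one is scalar. -/
lemma sc_of_inv_det (h2 : (2 : F) ≠ 0) {y : M₂ F} (hy : y * y = 1) (hd : y.det = 1) : Sc y := by
  have h00 := congrFun (congrFun hy 0) 0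
  have h01 := congrFun (congrFun hy 0) 1
  have h10 := congrFun (congrFun hy 1) 0
  have h11 := congrFun (congrFun hy 1) 1
  simp only [Matrix.mul_apply, Fin.sum_univ_two, Matrix.one_apply_eq] at h00 h11
  simp only [Matrix.mul_apply, Fin.sum_univ_two, Matrix.one_apply_ne (show (0 : Fin 2) ≠ 1 by decide), Matrix.one_apply_ne (show (1 : Fin 2) ≠ 0 by decide)] at h01 h10
  rw [Matrix.det_fin_two] at hd
  set p := y 0 0
  set q := y 0 1
  set r := y 1 0
  set s := y 1 1
  -- `y = adj y`
  have e1 : q * 2 = 0 := by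
    -- q (p + s) = 0 and q (p s - q r) = q
    have e3 : q = q * (p * s - q * r) := by rw [hd, mul_one]
    have e4 : q * (p + s) = 0 := by linear_combination h01
    have e5 : p * (p + s) = p * p + p * s := by ring
    have h12 : p * p + q * r = 1 := h00
    have e6 : q * (p + s) * p = q * (p * p + s * p) := by ring
    -- y² = (p + s) y - det y, so (p + s) y = 2
    have e7 : (p + s) * q = 0 := by linear_combination e4
    have e8 : (p + s) * p = 2 := by linear_combination h00 + hd
    have e9 : (p + s) * s = 2 := by linear_combination h11 + hd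
    have e10 : (p + s) ≠ 0 := by
      intro h0
      rw [h0, zero_mul] at e8
      exact h2 e8.symm
    have : q = 0 := (mul_eq_zero.mp e7).resolve_left e10
    rw [this, zero_mul]
  have hq : q = 0 := (mul_eq_zero.mp e1).resolve_right h2
  have e8 : (p + s) * p = 2 := by linear_combination h00 + hd
  have e9 : (p + s) * s = 2 := by linear_combination h11 + hd
  have e10 : (p + s) ≠ 0 := by
    intro h0
    rw [h0, zero_mul] at e8
    exact h2 e8.symm
  have e7 : (p + s) * r = 0 := by linear_combination h10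
  have hr : r = 0 := (mul_eq_zero.mp e7).resolve_left e10
  have hps : p = s := by
    have : (p + s) * (p - s) = 0 := by linear_combination e8 - e9
    exact sub_eq_zero.mp ((mul_eq_zero.mp this).resolve_left e10)
  exact sc_of_entries hq hr hps

/-- A non-scalar element of `F[c]` with scalar square is a multiple of `c`, when `c²` is scalar. -/
lemma eq_smul_of_sq (h2 : (2 : F) ≠ 0) {m c : M₂ F} (hc : ¬ Sc c) (hcc : Sc (c * c)) (h : m * c = c * m) (hm : Sc (m * m)) (hn : ¬ Sc m) :
    ∃ b : F, m = b • c := by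
  obtain ⟨a, b, rfl⟩ := exists_poly hc h
  have hb : b ≠ 0 := by
    rintro rfl
    exact hn ⟨a, by simp⟩
  rw [mul_poly] at hm
  have h3 : Sc ((a * b + b * a) • c) := by
    have h4 : Sc ((a * a) • (1 : M₂ F) + (a * b + b * a) • c + (b * b) • (c * c) + -((a * a) • (1 : M₂ F)) + -((b * b) • (c * c))) :=
      (hm.add (sc_smul_one (a * a)).neg).add (hcc.smul _).neg
    convert h4 using 1
    abel
  have h4 := eq_zero_of_sc hc h3
  have h5 : 2 * (a * b) = 0 := by linear_combination h4
  have h6 : a * b = 0 := (mul_eq_zero.mp h5).resolve_left h2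
  have h7 : a = 0 := (mul_eq_zero.mp h6).resolve_right hb
  exact ⟨b, by rw [h7]; simp⟩

lemma units_sq {u : Fˣ} (h : u * u = 1) : u = 1 ∨ u = -1 := by
  have h1 : (u : F) * u = 1 := by rw [← Units.val_mul, h, Units.val_one]
  rcases mul_self_eq_one_iff.mp h1 with h3 | h3
  · left
    exact Units.ext h3
  · right
    exact Units.ext (by rw [h3]; simp)

section group
variable {T : Type*} [Group T] (χ : T →* Fˣ) (ψ : T →* M₂ F) (hinj : ∀ x, χ x = 1 → ψ x = 1 → x = 1)
include hinj

lemma eq_of {x y : T} (h1 : χ x = χ y) (h2 : ψ x = ψ y) : x = y := by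
  have := hinj (x * y⁻¹) (by rw [map_mul, map_inv, h1, mul_inv_cancel]) (by rw [map_mul, h2, ← map_mul, mul_inv_cancel, map_one])
  exact mul_inv_eq_one.mp this

lemma comm_of_psi {x y : T} (h : ψ x * ψ y = ψ y * ψ x) : x * y = y * x :=
  eq_of χ ψ hinj (by rw [map_mul, map_mul, mul_comm]) (by rw [map_mul, map_mul, h])

lemma central_of_sc {z : T} (hz : Sc (ψ z)) (y : T) : y * z = z * y :=
  comm_of_psi χ ψ hinj (hz.comm _)

lemma comm_of_central {z : T} (hz : ∀ y, y * z = z * y) (hn : ¬ Sc (ψ z)) (a b : T) : a * b = b * a :=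
  comm_of_psi χ ψ hinj (comm_of_comm hn (by rw [← map_mul, ← map_mul, hz]) (by rw [← map_mul, ← map_mul, hz]))

omit hinj in
lemma psi_inv (x : T) : ψ x * ψ x⁻¹ = 1 := by
  rw [← map_mul, mul_inv_cancel, map_one]

omit hinj in
lemma exists_c₀ [Finite T] (hT : IsPGroup 2 T) (hnc : ¬ ∀ a b : T, a * b = b * a) :
    ∃ c₀ : T, c₀ ∉ Subgroup.center T ∧ ∀ y, y * c₀ * y⁻¹ * c₀⁻¹ ∈ Subgroup.center T := by
  classical
  haveI : Fact (Nat.Prime 2) := ⟨Nat.prime_two⟩
  haveI hQ : Nontrivial (T ⧸ Subgroup.center T) := by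
    rw [← not_subsingleton_iff_nontrivial]
    intro h
    have h1 := QuotientGroup.subgroup_eq_top_of_subsingleton (Subgroup.center T) h
    apply hnc
    intro a b
    have h3 : b ∈ Subgroup.center T := by rw [h1]; trivial
    exact Subgroup.mem_center_iff.mp h3 a
  haveI := (hT.to_quotient (Subgroup.center T)).center_nontrivial
  obtain ⟨q, hq⟩ := exists_ne (1 : Subgroup.center (T ⧸ Subgroup.center T))
  obtain ⟨c₀, hc₀⟩ := QuotientGroup.mk_surjective (q : T ⧸ Subgroup.center T)
  refine ⟨c₀, ?_, ?_⟩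
  · intro h
    apply hq
    apply Subtype.ext
    rw [← hc₀]
    exact (QuotientGroup.eq_one_iff c₀).mpr h
  · intro y
    rw [← QuotientGroup.eq_one_iff]
    have h1 : ((c₀ : T) : T ⧸ Subgroup.center T) ∈ Subgroup.center (T ⧸ Subgroup.center T) := by
      rw [hc₀]
      exact q.2
    have h3 := Subgroup.mem_center_iff.mp h1 (y : T ⧸ Subgroup.center T)
    rw [QuotientGroup.mk_mul, QuotientGroup.mk_mul, QuotientGroup.mk_mul, QuotientGroup.mk_inv, QuotientGroup.mk_inv, h3]
    group

/-- The structure of a nonabelian 2-group in `F × M₂(F)`. -/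
theorem exists_struct [Finite T] (hT : IsPGroup 2 T) (h2 : (2 : F) ≠ 0) (hnc : ¬ ∀ a b : T, a * b = b * a) :
    ∃ L : Subgroup T, L.index = 2 ∧ (∀ a ∈ L, ∀ b ∈ L, a * b = b * a) ∧ (∀ x, x ∉ L → Sc (ψ (x * x))) ∧
      (∀ w ∈ L, ∀ w' ∈ L, Sc (ψ (w * w)) → Sc (ψ (w' * w')) → ¬ Sc (ψ w) → ¬ Sc (ψ w') → Sc (ψ (w * w'))) := by
  classical
  obtain ⟨c₀, hc₀, hc₀'⟩ := exists_c₀ (T := T) hT hnc
  set c := ψ c₀ with hcd
  have hcS : ¬ Sc c := fun h => hc₀ (Subgroup.mem_center_iff.mpr (central_of_sc χ ψ hinj h))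
  have hcen : ∀ z, z ∈ Subgroup.center T → Sc (ψ z) := by
    intro z hz
    by_contra hn
    exact hnc (comm_of_central χ ψ hinj (fun y => Subgroup.mem_center_iff.mp hz y) hn)
  have hμ : ∀ y, ψ y * c = c * ψ y ∨ ψ y * c = -(c * ψ y) := by
    intro y
    obtain ⟨μ, hμ⟩ := hcen _ (hc₀' y)
    have e : ψ y * c = μ • (c * ψ y) := by
      have e1 : y * c₀ = (y * c₀ * y⁻¹ * c₀⁻¹) * (c₀ * y) := by group
      calc ψ y * c = ψ (y * c₀) := by rw [map_mul]
        _ = ψ (y * c₀ * y⁻¹ * c₀⁻¹) * ψ (c₀ * y) := by rw [← map_mul, ← e1]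
        _ = μ • (c * ψ y) := by rw [hμ, map_mul, smul_mul_assoc, one_mul]
    rcases multiplier_cases e (psi_inv ψ y) (psi_inv ψ c₀) with rfl | rfl
    · left
      rw [e, one_smul]
    · right
      rw [e, neg_smul, one_smul]
  let L : Subgroup T :=
    { carrier := {y | ψ y * c = c * ψ y}
      one_mem' := by
        change ψ 1 * c = c * ψ 1
        simp
      mul_mem' := fun {a b} ha hb => by
        change ψ (a * b) * c = c * ψ (a * b)
        have ha' : ψ a * c = c * ψ a := ha
        have hb' : ψ b * c = c * ψ b := hb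
        rw [map_mul, mul_assoc, hb', ← mul_assoc, ha', mul_assoc]
      inv_mem' := fun {a} ha => by
        change ψ a⁻¹ * c = c * ψ a⁻¹
        have ha' : ψ a * c = c * ψ a := ha
        have h1 : ψ a⁻¹ * ψ a = 1 := by rw [← map_mul, inv_mul_cancel, map_one]
        calc ψ a⁻¹ * c = ψ a⁻¹ * c * (ψ a * ψ a⁻¹) := by rw [psi_inv, mul_one]
          _ = ψ a⁻¹ * (c * ψ a) * ψ a⁻¹ := by simp only [mul_assoc]
          _ = ψ a⁻¹ * (ψ a * c) * ψ a⁻¹ := by rw [ha']
          _ = (ψ a⁻¹ * ψ a) * c * ψ a⁻¹ := by simp only [mul_assoc]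
          _ = c * ψ a⁻¹ := by rw [h1, one_mul] }
  have hmem : ∀ y, y ∈ L ↔ ψ y * c = c * ψ y := fun y => Iff.rfl
  have hneg : ∀ y, y ∉ L → ψ y * c = -(c * ψ y) := fun y hy => (hμ y).resolve_left hy
  obtain ⟨x₀, hx₀⟩ : ∃ x₀, x₀ ∉ L := by
    by_contra h
    push_neg at h
    apply hc₀
    rw [Subgroup.mem_center_iff]
    intro y
    exact comm_of_psi χ ψ hinj (h y)
  have hmul : ∀ a b, a ∉ L → b ∉ L → a * b ∈ L := by
    intro a b ha hb
    rw [hmem, map_mul, mul_assoc, hneg b hb, mul_neg, ← mul_assoc, hneg a ha, neg_mul, neg_neg, mul_assoc]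
  have hi : ∀ x : T, c * ψ x * (ψ x⁻¹ * ψ c₀⁻¹) = 1 := by
    intro x
    calc c * ψ x * (ψ x⁻¹ * ψ c₀⁻¹) = c * (ψ x * ψ x⁻¹) * ψ c₀⁻¹ := by simp only [mul_assoc]
      _ = 1 := by rw [psi_inv, mul_one, psi_inv]
  have hcc : Sc (c * c) := by
    refine sc_of_comm_anti h2 hcS (by rw [mul_assoc]) ?_ (hneg x₀ hx₀) (hi x₀)
    have h3 := hneg x₀ hx₀
    have h4 : c * ψ x₀ = -(ψ x₀ * c) := by rw [h3, neg_neg]
    rw [mul_assoc, h4, mul_neg, ← mul_assoc, h4, neg_mul, neg_neg, mul_assoc]
  refine ⟨L, ?_, ?_, ?_, ?_⟩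
  · rw [Subgroup.index_eq_two_iff]
    refine ⟨x₀, fun b => ?_⟩
    by_cases hb : b ∈ L
    · right
      refine ⟨hb, fun h => hx₀ ?_⟩
      have := L.mul_mem (L.inv_mem hb) h
      simpa using this
    · left
      exact ⟨hmul b x₀ hb hx₀, hb⟩
  · intro a ha b hb
    exact comm_of_psi χ ψ hinj (comm_of_comm hcS ha hb)
  · intro x hx
    rw [map_mul]
    refine sc_of_comm_anti h2 hcS ?_ (by rw [mul_assoc]) (hneg x hx) (hi x)
    rw [mul_assoc, hneg x hx, mul_neg, ← mul_assoc, hneg x hx, neg_mul, neg_neg, mul_assoc]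
  · intro w hw w' hw' hww hww' hn hn'
    rw [map_mul] at hww hww' ⊢
    obtain ⟨b, hb⟩ := eq_smul_of_sq h2 hcS hcc hw hww hn
    obtain ⟨b', hb'⟩ := eq_smul_of_sq h2 hcS hcc hw' hww' hn'
    rw [hb, hb', smul_mul_assoc, mul_smul_comm]
    exact (hcc.smul _).smul _

/-- The special elements provided by an elementary abelian subgroup of order eight. -/
theorem exists_special [Finite T] (h2 : (2 : F) ≠ 0) (E : Subgroup T) (hE2 : ∀ e ∈ E, e * e = 1) (hEc : ∀ a ∈ E, ∀ b ∈ E, a * b = b * a)
    (hE8 : Nat.card E = 8) : ∃ d ε δ : T, d * d = 1 ∧ ¬ Sc (ψ d) ∧ χ ε = 1 ∧ ψ ε = -1 ∧ χ δ = -1 ∧ ψ δ = 1 := by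
  classical
  haveI : Fintype E := Fintype.ofFinite _
  have hcard : Fintype.card E = 8 := by rw [← Nat.card_eq_fintype_card, hE8]
  have hχ : ∀ e : E, χ e = 1 ∨ χ e = -1 := by
    intro e
    apply units_sq
    rw [← map_mul, hE2 e e.2, map_one]
  have hψ2 : ∀ e : E, ψ e * ψ e = 1 := by
    intro e
    rw [← map_mul, hE2 e e.2, map_one]
  let g : E → Fˣ × M₂ F := fun e => (χ e, ψ e)
  have hg : Function.Injective g := by
    intro a b hab
    apply Subtype.ext
    have h1 : χ a = χ b := congrArg Prod.fst hab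
    have h3 : ψ a = ψ b := congrArg Prod.snd hab
    exact eq_of χ ψ hinj h1 h3
  obtain ⟨d, hdE, hd⟩ : ∃ d ∈ E, ¬ Sc (ψ d) := by
    by_contra hno
    push_neg at hno
    have hsub : (Finset.univ.image g) ⊆ ({1, -1} : Finset Fˣ) ×ˢ ({1, -1} : Finset (M₂ F)) := by
      intro p hp
      obtain ⟨e, -, rfl⟩ := Finset.mem_image.mp hp
      simp only [Finset.mem_product, Finset.mem_insert, Finset.mem_singleton]
      exact ⟨hχ e, sc_inv_cases (hno e e.2) (hψ2 e)⟩
    have h3 := Finset.card_le_card hsub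
    rw [Finset.card_image_of_injective _ hg, Finset.card_univ, hcard, Finset.card_product] at h3
    have h4 := Finset.card_le_two (a := (1 : Fˣ)) (b := -1)
    have h5 := Finset.card_le_two (a := (1 : M₂ F)) (b := -1)
    have := Nat.mul_le_mul h4 h5
    omega
  have hdd : ψ d * ψ d = 1 := hψ2 ⟨d, hdE⟩
  have hsub : (Finset.univ.image g) ⊆ ({1, -1} : Finset Fˣ) ×ˢ ({1, -1, ψ d, -ψ d} : Finset (M₂ F)) := by
    intro p hp
    obtain ⟨e, -, rfl⟩ := Finset.mem_image.mp hp
    simp only [Finset.mem_product, Finset.mem_insert, Finset.mem_singleton]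
    refine ⟨hχ e, inv_comm_cases h2 hd hdd (hψ2 e) ?_⟩
    rw [← map_mul, ← map_mul, hEc e e.2 d hdE]
  have hcardS : (({1, -1} : Finset Fˣ) ×ˢ ({1, -1, ψ d, -ψ d} : Finset (M₂ F))).card ≤ (Finset.univ.image g).card := by
    rw [Finset.card_image_of_injective _ hg, Finset.card_univ, hcard, Finset.card_product]
    have h4 := Finset.card_le_two (a := (1 : Fˣ)) (b := -1)
    have h5 := Finset.card_le_four (a := (1 : M₂ F)) (b := -1) (c := ψ d) (d := -ψ d)
    have := Nat.mul_le_mul h4 h5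
    omega
  have hS := Finset.eq_of_subset_of_card_le hsub hcardS
  have hε : ((1 : Fˣ), (-1 : M₂ F)) ∈ Finset.univ.image g := by
    rw [hS]
    simp
  have hδ : ((-1 : Fˣ), (1 : M₂ F)) ∈ Finset.univ.image g := by
    rw [hS]
    simp
  obtain ⟨ε, -, hε'⟩ := Finset.mem_image.mp hε
  obtain ⟨δ, -, hδ'⟩ := Finset.mem_image.mp hδ
  exact ⟨d, ε, δ, hE2 d hdE, hd, congrArg Prod.fst hε', congrArg Prod.snd hε', congrArg Prod.fst hδ', congrArg Prod.snd hδ'⟩

end group

/-- **From the block form to the contradiction.** -/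
theorem comm_of_block {G : Type*} [Group G] [Finite G] (hG : ∀ H : Subgroup G, H.index ≠ 2) (X : Sylow 2 G) (h2 : (2 : F) ≠ 0)
    (χ : ↥(X : Subgroup G) →* Fˣ) (ψ : ↥(X : Subgroup G) →* M₂ F) (hinj : ∀ x, χ x = 1 → ψ x = 1 → x = 1)
    (E : Subgroup G) (hE : E ≤ (X : Subgroup G)) (hEa : Cfsg.IsElementaryAbelian 2 E) (hE8 : Nat.card E = 8) :
    IsMulCommutative (X : Subgroup G) := by
  classical
  by_contra hcomm
  have hnc : ¬ ∀ a b : ↥(X : Subgroup G), a * b = b * a := fun h => hcomm ⟨⟨h⟩⟩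
  have hT : IsPGroup 2 ↥(X : Subgroup G) := X.isPGroup'
  obtain ⟨L₀, hL₀i, hL₀c, hL₀s, hL₀F⟩ := exists_struct χ ψ hinj hT h2 hnc
  obtain ⟨d, ε, δ, hd2, hd, hε, hε', hδ, hδ'⟩ := exists_special χ ψ hinj h2 (E.subgroupOf (X : Subgroup G))
    (fun e he => Subtype.ext (by
      have := hEa.2 (e : G) he
      simpa [pow_two] using this))
    (fun a ha b hb => Subtype.ext (by
      have h1 := hEa.1.is_comm.comm (⟨a, ha⟩ : E) ⟨b, hb⟩
      have h3 : (a : G) * (b : G) = (b : G) * (a : G) := congrArg Subtype.val h1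
      exact h3))
    (by rw [Nat.card_congr (Subgroup.subgroupOfEquivOfLe hE).toEquiv, hE8])
  have hm1 : (-1 : Fˣ) ≠ 1 := by
    intro h
    have h3 : (-1 : F) = 1 := by simpa using congrArg Units.val h
    apply h2
    linear_combination -h3
  have hm1' : (-1 : M₂ F) ≠ 1 := by
    intro h
    have h3 := congrFun (congrFun h 0) 0
    have h4 : (-1 : F) = 1 := by simpa using h3
    apply h2
    linear_combination -h4
  set L : Subgroup G := L₀.map (X : Subgroup G).subtype with hL
  have hmem : ∀ x : ↥(X : Subgroup G), (x : G) ∈ L ↔ x ∈ L₀ := by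
    intro x
    constructor
    · rintro ⟨y, hy, hxy⟩
      have : y = x := Subtype.ext hxy
      rwa [← this]
    · intro h
      exact ⟨x, h, rfl⟩
  have hcen : ∀ x : ↥(X : Subgroup G), Main.IsC X (x : G) ↔ Sc (ψ x) := by
    intro x
    constructor
    · intro h
      by_contra hn
      exact hnc (comm_of_central χ ψ hinj (fun y => Subtype.ext (h.2 y y.2)) hn)
    · intro h
      exact ⟨x.2, fun y hy => congrArg Subtype.val (central_of_sc χ ψ hinj h ⟨y, hy⟩)⟩
  have hδc : Main.IsC X (δ : G) := (hcen δ).mpr (by rw [hδ']; exact sc_one)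
  have hεc : Main.IsC X (ε : G) := (hcen ε).mpr (by rw [hε']; exact ⟨-1, by simp⟩)
  have hδ2 : δ * δ = 1 := hinj _ (by rw [map_mul, hδ]; simp) (by rw [map_mul, hδ']; simp)
  have hε2 : ε * ε = 1 := hinj _ (by rw [map_mul, hε]; simp) (by rw [map_mul, hε']; simp)
  let H : Main.Hyp X Fˣ :=
    { L := L
      hLX := Subgroup.map_subtype_le _
      hLc := by
        rintro _ ⟨a, ha, rfl⟩ _ ⟨b, hb, rfl⟩
        exact congrArg Subtype.val (hL₀c a ha b hb)
      hLi := by
        rw [Subgroup.relIndex, hL]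
        have : (L₀.map (X : Subgroup G).subtype).subgroupOf (X : Subgroup G) = L₀ :=
          Subgroup.comap_map_eq_self_of_injective Subtype.val_injective _
        rw [this, hL₀i]
      hsq := by
        intro x hx hxL
        exact (hcen (⟨x, hx⟩ * ⟨x, hx⟩)).mpr (hL₀s ⟨x, hx⟩ (fun h => hxL ((hmem ⟨x, hx⟩).mpr h)))
      hFc := by
        rintro _ ⟨w, hw, rfl⟩ _ ⟨w', hw', rfl⟩ h1 h3 h4 h5
        exact (hcen (w * w')).mpr (hL₀F w hw w' hw' ((hcen (w * w)).mp h1) ((hcen (w' * w')).mp h3)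
          (fun h => h4 ((hcen w).mpr h)) (fun h => h5 ((hcen w').mpr h)))
      δ := δ
      ε := ε
      hδ := hδc
      hε := hεc
      hδ2 := congrArg Subtype.val hδ2
      hε2 := congrArg Subtype.val hε2
      hδ1 := by
        intro h
        have h3 : δ = 1 := Subtype.ext h
        rw [h3, map_one] at hδ
        exact hm1 hδ.symm
      hε1 := by
        intro h
        have h3 : ε = 1 := Subtype.ext h
        rw [h3, map_one] at hε'
        exact hm1' hε'.symm
      hδε := by
        intro h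
        have h3 : δ = ε := Subtype.ext h
        rw [h3, hε] at hδ
        exact hm1 hδ.symm
      hinv := by
        intro z hz hz2
        have hzz : (⟨z, hz.1⟩ : ↥(X : Subgroup G)) * ⟨z, hz.1⟩ = 1 := Subtype.ext hz2
        have h1 : ψ ⟨z, hz.1⟩ = 1 ∨ ψ ⟨z, hz.1⟩ = -1 :=
          sc_inv_cases ((hcen ⟨z, hz.1⟩).mp hz) (by rw [← map_mul, hzz, map_one])
        have h3 : χ ⟨z, hz.1⟩ = 1 ∨ χ ⟨z, hz.1⟩ = -1 := units_sq (by rw [← map_mul, hzz, map_one])
        rcases h3 with h3 | h3 <;> rcases h1 with h1 | h1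
        · left
          exact congrArg Subtype.val (hinj ⟨z, hz.1⟩ h3 h1)
        · right; right; left
          exact congrArg Subtype.val (eq_of χ ψ hinj (x := ⟨z, hz.1⟩) (y := ε) (by rw [h3, hε]) (by rw [h1, hε']))
        · right; left
          exact congrArg Subtype.val (eq_of χ ψ hinj (x := ⟨z, hz.1⟩) (y := δ) (by rw [h3, hδ]) (by rw [h1, hδ']))
        · right; right; right
          exact congrArg Subtype.val (eq_of χ ψ hinj (x := ⟨z, hz.1⟩) (y := δ * ε) (by rw [h3, map_mul, hδ, hε, mul_one])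
            (by rw [h1, map_mul, hδ', hε', one_mul]))
      hcomm := by
        intro x hx hx2
        let dψ : ↥(X : Subgroup G) →* F := Matrix.detMonoidHom.comp ψ
        have hle : ⁅(X : Subgroup G), (X : Subgroup G)⁆ ≤ (χ.ker ⊓ dψ.ker).map (X : Subgroup G).subtype := by
          rw [Subgroup.commutator_le]
          intro a ha b hb
          refine ⟨(⟨a, ha⟩ : ↥(X : Subgroup G)) * ⟨b, hb⟩ * (⟨a, ha⟩ : ↥(X : Subgroup G))⁻¹ * (⟨b, hb⟩ : ↥(X : Subgroup G))⁻¹, Subgroup.mem_inf.mpr ⟨MonoidHom.mem_ker.mpr ?_, MonoidHom.mem_ker.mpr ?_⟩, rfl⟩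
          · rw [map_mul, map_mul, map_mul, map_inv, map_inv]
            rw [mul_comm (χ ⟨a, ha⟩), mul_inv_cancel_right, mul_inv_cancel]
          · have ea : dψ ⟨a, ha⟩ * dψ (⟨a, ha⟩ : ↥(X : Subgroup G))⁻¹ = 1 := by rw [← map_mul, mul_inv_cancel, map_one]
            have eb : dψ ⟨b, hb⟩ * dψ (⟨b, hb⟩ : ↥(X : Subgroup G))⁻¹ = 1 := by rw [← map_mul, mul_inv_cancel, map_one]
            rw [map_mul, map_mul, map_mul]
            linear_combination dψ ⟨b, hb⟩ * dψ (⟨b, hb⟩ : ↥(X : Subgroup G))⁻¹ * ea + eb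
        obtain ⟨x', ⟨hx'1, hx'2⟩, rfl⟩ := hle hx
        have hzz : x' * x' = 1 := Subtype.ext hx2
        have h1 : ψ x' * ψ x' = 1 := by rw [← map_mul, hzz, map_one]
        have h3 : (ψ x').det = 1 := hx'2
        rcases sc_inv_cases (sc_of_inv_det h2 h1 h3) h1 with h4 | h4
        · left
          exact congrArg Subtype.val (hinj x' hx'1 h4)
        · right
          exact congrArg Subtype.val (eq_of χ ψ hinj (x := x') (y := ε) (by rw [hε]; exact hx'1) (by rw [h4, hε']))
      χ := χ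
      hχδ := by
        change χ δ ≠ 1
        rw [hδ]
        exact hm1
      hχ := by
        intro x hx
        have : χ ⟨(δ : G), hδc.1⟩ = -1 := hδ
        rw [this]
        exact units_sq hx
      d := d
      hd := d.2
      hd2 := congrArg Subtype.val hd2
      hdc := fun h => hd ((hcen d).mp h)
      hG := Basic.hom_trivial_of_index hG }
  exact Main.false_of_hyp H

end Cfsg.Agent.Lib.GL3Syl.Linear
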