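import Mathlib
import Cfsg.Agent.Lib.GL3Syl.Linear

/-!
# A 2-group acting on a three dimensional space over a finite field of odd characteristic

It fixes a line and a complementary plane: block form `χ ⊕ ψ`.
-/

set_option autoImplicit false
set_option linter.style.haveILetI false
set_option linter.unusedSectionVars false
set_option linter.unusedVariables false
set_option linter.style.longLine false
set_option linter.style.multiGoal false

namespace Cfsg.Agent.Lib.GL3Syl.Line

open Cfsg.Agent.Lib.GL3Syl.Linear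
open scoped LinearAlgebra.Projectivization

variable {T : Type*} [Group T] [Finite T] {F : Type*} [Field F] [Finite F] {V : Type*} [AddCommGroup V] [Module F V]

omit [Group T] [Finite T] in
lemma two_ne_zero_of_odd (hodd : Odd (Nat.card F)) : (2 : F) ≠ 0 := by
  intro h
  haveI : Fact (Nat.Prime 2) := ⟨Nat.prime_two⟩
  have h1 : addOrderOf (1 : F) = 2 := addOrderOf_eq_prime (by simpa using h) one_ne_zero
  have h3 : addOrderOf (1 : F) ∣ Nat.card F := addOrderOf_dvd_natCard _
  rw [h1] at h3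
  rw [← Nat.not_even_iff_odd, even_iff_two_dvd] at hodd
  exact hodd h3

/-- A fixed line. -/
lemma exists_line (hT : IsPGroup 2 T) (hodd : Odd (Nat.card F)) (hV : Module.finrank F V = 3) (ρ : T →* Module.End F V) :
    ∃ v : V, v ≠ 0 ∧ ∀ x, ∃ a : F, ρ x v = a • v := by
  classical
  haveI : Fact (Nat.Prime 2) := ⟨Nat.prime_two⟩
  let ρu : T →* LinearMap.GeneralLinearGroup F V := ρ.toHomUnits
  have hR : IsPGroup 2 ρu.range := hT.of_surjective ρu.rangeRestrict ρu.rangeRestrict_surjective
  have hcard : ¬ 2 ∣ Nat.card (ℙ F V) := by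
    rw [Projectivization.card_of_finrank F V hV]
    simp only [Finset.sum_range_succ, Finset.sum_range_zero, pow_zero, pow_one, zero_add]
    have h1 : Odd (Nat.card F ^ 2) := hodd.pow
    rw [← Nat.not_even_iff_odd, even_iff_two_dvd] at hodd h1
    omega
  obtain ⟨p, hp⟩ := hR.nonempty_fixed_point_of_prime_not_dvd_card (ℙ F V) hcard
  induction p using Projectivization.ind with
  | h v hv =>
    refine ⟨v, hv, fun x => ?_⟩
    have h1 := hp ⟨ρu x, ⟨x, rfl⟩⟩
    change (ρu x) • Projectivization.mk F v hv = Projectivization.mk F v hv at h1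
    rw [Projectivization.smul_mk, Projectivization.mk_eq_mk_iff] at h1
    obtain ⟨a, ha⟩ := h1
    refine ⟨(a : F), ?_⟩
    exact ha.symm

/-- **Block form.** -/
theorem exists_block (hT : IsPGroup 2 T) (hodd : Odd (Nat.card F)) (hV : Module.finrank F V = 3) (ρ : T →* Module.End F V)
    (hρ : ∀ x, ρ x = 1 → x = 1) :
    ∃ (χ : T →* Fˣ) (ψ : T →* M₂ F), ∀ x, χ x = 1 → ψ x = 1 → x = 1 := by
  classical
  haveI := Fintype.ofFinite T
  haveI : FiniteDimensional F V := Module.finite_of_finrank_pos (by omega)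
  have h2 : (2 : F) ≠ 0 := two_ne_zero_of_odd hodd
  have hcardT : ((Fintype.card T : ℕ) : F) ≠ 0 := by
    obtain ⟨n, hn⟩ := IsPGroup.iff_card.mp hT
    rw [← Nat.card_eq_fintype_card, hn]
    push_cast
    exact pow_ne_zero _ h2
  obtain ⟨v, hv, hline⟩ := exists_line hT hodd hV ρ
  obtain ⟨π₀, hπ₀⟩ : ∃ π₀ : V →ₗ[F] F, π₀ v = 1 := by
    have h1 : ∃ φ : Module.Dual F V, φ v ≠ 0 := by
      by_contra h
      push_neg at h
      exact hv ((Module.forall_dual_apply_eq_zero_iff F v).mp h)
    obtain ⟨φ, hφ⟩ := h1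
    exact ⟨(φ v)⁻¹ • φ, by simp [hφ]⟩
  have hχv : ∀ x, ρ x v = π₀ (ρ x v) • v := by
    intro x
    obtain ⟨a, ha⟩ := hline x
    rw [ha, map_smul, hπ₀, smul_eq_mul, mul_one]
  let χm : T →* F :=
    { toFun := fun x => π₀ (ρ x v)
      map_one' := by simp [hπ₀]
      map_mul' := fun a b => by
        change π₀ (ρ (a * b) v) = π₀ (ρ a v) * π₀ (ρ b v)
        have h4 : ρ (a * b) v = π₀ (ρ b v) • ρ a v := by
          rw [map_mul, Module.End.mul_apply]
          nth_rw 1 [hχv b]
          rw [map_smul]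
        rw [h4, map_smul, smul_eq_mul, mul_comm] }
  have hχm : ∀ x, χm x = π₀ (ρ x v) := fun x => rfl
  have hχv' : ∀ x, ρ x v = χm x • v := hχv
  have hχinv : ∀ x, χm x * χm x⁻¹ = 1 := fun x => by rw [← map_mul, mul_inv_cancel, map_one]
  let φ : V →ₗ[F] F := ((Fintype.card T : F)⁻¹) • ∑ x : T, (χm x) • (π₀.comp (ρ x⁻¹))
  have hφa : ∀ w, φ w = (Fintype.card T : F)⁻¹ * ∑ x : T, χm x * π₀ (ρ x⁻¹ w) := by
    intro w
    simp [φ, LinearMap.sum_apply]
  have hφv : φ v = 1 := by
    rw [hφa]
    have h1 : ∀ x : T, χm x * π₀ (ρ x⁻¹ v) = 1 := by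
      intro x
      rw [hχv' x⁻¹, map_smul, hπ₀, smul_eq_mul, mul_one, hχinv]
    simp only [h1, Finset.sum_const, Finset.card_univ, nsmul_eq_mul, mul_one]
    exact inv_mul_cancel₀ hcardT
  have hφy : ∀ y w, φ (ρ y w) = χm y * φ w := by
    intro y w
    rw [hφa, hφa, mul_left_comm]
    congr 1
    have h4 : ∑ x : T, χm x * π₀ (ρ x⁻¹ (ρ y w)) = ∑ z : T, χm (y * z) * π₀ (ρ (y * z)⁻¹ (ρ y w)) :=
      (Equiv.sum_comp (Equiv.mulLeft y) (fun x => χm x * π₀ (ρ x⁻¹ (ρ y w)))).symm
    rw [h4, Finset.mul_sum]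
    apply Finset.sum_congr rfl
    intro z _
    have e : (y * z)⁻¹ * y = z⁻¹ := by group
    have e1 : ρ (y * z)⁻¹ (ρ y w) = ρ z⁻¹ w := by
      rw [← Module.End.mul_apply, ← map_mul, e]
    rw [e1, map_mul, mul_assoc]
  let W : Submodule F V := LinearMap.ker φ
  have hWinv : ∀ x, ∀ w ∈ W, ρ x w ∈ W := by
    intro x w hw
    have hw' : φ w = 0 := hw
    change φ (ρ x w) = 0
    rw [hφy, hw', mul_zero]
  have hW2 : Module.finrank F W = 2 := by
    have h1 : Module.finrank F (LinearMap.range φ) + Module.finrank F W = Module.finrank F V := LinearMap.finrank_range_add_finrank_ker φ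
    have h3 : LinearMap.range φ = ⊤ := LinearMap.range_eq_top.mpr (fun a => ⟨a • v, by rw [map_smul, hφv, smul_eq_mul, mul_one]⟩)
    rw [h3, finrank_top, Module.finrank_self, hV] at h1
    omega
  let R : T →* Module.End F W :=
    { toFun := fun x => (ρ x).restrict (hWinv x)
      map_one' := by
        ext w
        simp
      map_mul' := fun a b => by
        ext w
        simp }
  have hRa : ∀ x (w : W), ((R x w : W) : V) = ρ x w := fun x w => rfl
  let b := Module.finBasisOfFinrankEq F W hW2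
  let ψ : T →* M₂ F :=
    { toFun := fun x => LinearMap.toMatrixAlgEquiv b (R x)
      map_one' := by simp
      map_mul' := fun a b => by simp }
  refine ⟨χm.toHomUnits, ψ, fun x hχ hψ => hρ x ?_⟩
  have hχ1 : χm x = 1 := by
    have := congrArg Units.val hχ
    simpa using this
  have hR1 : R x = 1 := by
    apply (LinearMap.toMatrixAlgEquiv b).injective
    rw [map_one]
    exact hψ
  ext u
  have hu : u = φ u • v + (u - φ u • v) := by abel
  have hw : u - φ u • v ∈ W := by
    change φ (u - φ u • v) = 0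
    rw [map_sub, map_smul, hφv, smul_eq_mul, mul_one, sub_self]
  have h3 : ρ x (u - φ u • v) = u - φ u • v := by
    have h4 := hRa x ⟨_, hw⟩
    rw [hR1] at h4
    exact h4.symm
  rw [hu, map_add, map_smul, hχv', hχ1, one_smul, h3]
  simp

end Cfsg.Agent.Lib.GL3Syl.Line
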